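import Mathlib
import Cfsg.Agent.Lib.Helper17.DStar2
import Cfsg.Agent.Lib.Helper17.Cores

set_option autoImplicit false

namespace Cfsg.Agent.Lib.Helper17

open Subgroup
open scoped commutatorElement

variable {G : Type*} [Group G]

/-- the family behind `D*(Q)` seen inside the ambient group -/
def RelFam (Q A : Subgroup G) : Prop :=
  A ≤ Q ∧ IsMulCommutative A ∧ ∀ x ∈ Q,
    ⁅⁅A ⊔ zpowers x, A ⊔ zpowers x⁆, A ⊔ zpowers x⁆ = ⊥ → ∀ a ∈ A, a * x = x * a

theorem class_two_map_iff {H : Type*} [Group H] (f : H →* G) (hf : Function.Injective f) (T : Subgroup H) :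
    ⁅⁅T.map f, T.map f⁆, T.map f⁆ = ⊥ ↔ ⁅⁅T, T⁆, T⁆ = ⊥ := by
  rw [← map_commutator, ← map_commutator, map_eq_bot_iff_of_injective _ hf]

theorem relFam_of_mem {Q : Subgroup G} {B : Subgroup Q} (hB : B ∈ Cfsg.dStarFamily Q) :
    RelFam Q (B.map Q.subtype) := by
  have hBc := hB.1
  refine ⟨map_subtype_le B, inferInstance, ?_⟩
  intro x hx hcl
  have h1 : B.map Q.subtype ⊔ zpowers x = (B ⊔ zpowers (⟨x, hx⟩ : Q)).map Q.subtype := by
    rw [Subgroup.map_sup, MonoidHom.map_zpowers]; rfl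
  rw [h1, class_two_map_iff _ Q.subtype_injective] at hcl
  rintro _ ⟨a, ha, rfl⟩
  have := hB.2 _ hcl a ha
  exact congrArg Subtype.val this

theorem mem_of_relFam {Q A : Subgroup G} (h : RelFam Q A) : A.subgroupOf Q ∈ Cfsg.dStarFamily Q := by
  obtain ⟨hle, hc, hx⟩ := h
  refine ⟨inferInstance, ?_⟩
  intro x hcl a ha
  have h1 : A ⊔ zpowers (x : G) = (A.subgroupOf Q ⊔ zpowers x).map Q.subtype := by
    rw [Subgroup.map_sup, MonoidHom.map_zpowers, map_subgroupOf_eq_of_le hle]; rfl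
  rw [← class_two_map_iff _ Q.subtype_injective, ← h1] at hcl
  exact Subtype.ext (hx x x.2 hcl a ha)

theorem RelFam.le_dStarOf {Q A : Subgroup G} (h : RelFam Q A) : A ≤ Cfsg.dStarOf Q := by
  have h1 : A.subgroupOf Q ≤ Cfsg.dStar Q := le_sSup (mem_of_relFam h)
  have h2 := Subgroup.map_mono (f := Q.subtype) h1
  rw [map_subgroupOf_eq_of_le h.1] at h2
  exact h2

theorem relFam_dStarOf {p : ℕ} [Fact p.Prime] {Q : Subgroup G} [Finite Q] (hQ : IsPGroup p Q) :
    RelFam Q (Cfsg.dStarOf Q) := by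
  have : Group.IsNilpotent Q := hQ.isNilpotent
  exact relFam_of_mem dStar_mem_family

theorem RelFam.map {Q A : Subgroup G} (h : RelFam Q A) (φ : G ≃* G) :
    RelFam (Q.map φ.toMonoidHom) (A.map φ.toMonoidHom) := by
  obtain ⟨hle, hc, hx⟩ := h
  refine ⟨Subgroup.map_mono hle, inferInstance, ?_⟩
  rintro _ ⟨y, hy, rfl⟩ hcl
  have h1 : A.map φ.toMonoidHom ⊔ zpowers (φ.toMonoidHom y) = (A ⊔ zpowers y).map φ.toMonoidHom := by
    rw [Subgroup.map_sup, MonoidHom.map_zpowers]
  rw [h1, class_two_map_iff _ φ.injective] at hcl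
  rintro _ ⟨a, ha, rfl⟩
  have := hx y hy hcl a ha
  have h2 := congrArg φ this
  simpa using h2

theorem RelFam.mono {Q R A : Subgroup G} (h : RelFam Q A) (hAR : A ≤ R) (hRQ : R ≤ Q) : RelFam R A :=
  ⟨hAR, h.2.1, fun x hx => h.2.2 x (hRQ hx)⟩

theorem RelFam.commute {Q A : Subgroup G} (h : RelFam Q A) (K : Subgroup G) {x : G} (hxQ : x ∈ Q)
    (hAK : A ≤ centralizer (K : Set G)) (hx : x ∈ commInto K (A : Set G)) : ∀ a ∈ A, a * x = x * a := by
  apply h.2.2 x hxQ
  have hz : zpowers x ≤ commInto K (A : Set G) := by rw [zpowers_le]; exact hx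
  apply class_two_sup_of_central (K := K) hAK
  · exact fun t ht => (hz ht).1
  · rw [commutator_self_eq_bot_of_comm h.2.1]; exact bot_le
  · rw [commutator_self_eq_bot_of_comm inferInstance]; exact bot_le
  · rw [Subgroup.commutator_le]
    intro a ha t ht
    have h1 := (hz ht).2 a ha
    have h2 : ⁅a, t⁆ = (t * a * t⁻¹ * a⁻¹)⁻¹ := by rw [commutatorElement_def]; group
    rw [h2]
    exact inv_mem h1

theorem dStarOf_map_conj_le {p : ℕ} [Fact p.Prime] {Q : Subgroup G} [Finite Q] (hQ : IsPGroup p Q)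
    {g : G} (hg : Q.map (MulAut.conj g).toMonoidHom = Q) :
    (Cfsg.dStarOf Q).map (MulAut.conj g).toMonoidHom ≤ Cfsg.dStarOf Q := by
  have h := (relFam_dStarOf hQ).map (MulAut.conj g)
  rw [hg] at h
  exact h.le_dStarOf

theorem dStarOf_normal_of_normal {p : ℕ} [Fact p.Prime] {Q : Subgroup G} [Finite Q] (hQ : IsPGroup p Q)
    (hn : Q.Normal) : (Cfsg.dStarOf Q).Normal := by
  constructor
  intro n hn' g
  exact dStarOf_map_conj_le hQ (Subgroup.Normal.map_conj_eq Q g) ⟨n, hn', rfl⟩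

theorem dStarOf_conj_mem {p : ℕ} [Fact p.Prime] {Q : Subgroup G} [Finite Q] (hQ : IsPGroup p Q)
    {g d : G} (hg : g ∈ Q) (hd : d ∈ Cfsg.dStarOf Q) : g * d * g⁻¹ ∈ Cfsg.dStarOf Q := by
  have h1 : Q.map (MulAut.conj g).toMonoidHom = Q :=
    mem_normalizer_iff_map_conj_eq.mp (le_normalizer hg)
  exact dStarOf_map_conj_le hQ h1 ⟨d, hd, rfl⟩

/-- The `D*`-theorem. -/
theorem dStar_theorem [Finite G] {p : ℕ} [Fact p.Prime]
    (hc : centralizer (Cfsg.pCore p G : Set G) ≤ Cfsg.pCore p G)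
    (hst : ∀ (P : Subgroup G) [P.Normal], IsPGroup p P → Cfsg.IsPStableOn p P) (S : Sylow p G) :
    (Cfsg.dStarOf (S : Subgroup G)).Normal := by
  obtain ⟨P, hP⟩ : ∃ P, P = Cfsg.pCore p G := ⟨_, rfl⟩
  rw [← hP] at hc
  have hPn : P.Normal := by
    rw [hP]
    have := pCore_characteristic (G := G) p
    infer_instance
  have hPp : IsPGroup p P := by rw [hP]; exact pCore_isPGroup p
  have hPS : P ≤ S := by rw [hP]; exact pCore_le_sylow S
  obtain ⟨D, hD⟩ : ∃ D, D = Cfsg.dStarOf (S : Subgroup G) := ⟨_, rfl⟩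
  rw [← hD]
  have hDf : RelFam S D := by rw [hD]; exact relFam_dStarOf S.2
  have hDc := hDf.2.1
  have hsyl : ∀ (N : Subgroup G) [N.Normal] (y : G),
      (QuotientGroup.mk y : G ⧸ N) ∈ Cfsg.pCore p (G ⧸ N) → ∃ s ∈ S, s⁻¹ * y ∈ N := by
    intro N _ y hy
    have h1 := pCore_le_sylow (S.mapSurjective (QuotientGroup.mk'_surjective N)) hy
    obtain ⟨s, hs, hsy⟩ := h1
    exact ⟨s, hs, QuotientGroup.eq.mp hsy⟩
  -- Step 1 : D ≤ P
  have hDP : D ≤ P := by
    intro d hd
    have hq : ⁅⁅P, zpowers d⁆, zpowers d⁆ = ⊥ := by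
      have h1 : ⁅P, zpowers d⁆ ≤ D := by
        rw [commutator_le]
        rintro u hu _ ⟨k, rfl⟩
        have hdk : d ^ k ∈ D := zpow_mem hd k
        rw [commutatorElement_def]
        refine mul_mem ?_ (inv_mem hdk)
        rw [hD] at hdk ⊢
        exact dStarOf_conj_mem S.2 (hPS hu) hdk
      rw [eq_bot_iff]
      refine (commutator_mono h1 (zpowers_le.mpr hd)).trans ?_
      rw [commutator_self_eq_bot_of_comm hDc]
    have h2 := hst P hPp d hq
    have h3 : (Cfsg.pCore p (G ⧸ centralizer (P : Set G))).comap (QuotientGroup.mk' _) ≤ P := by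
      have h4 : (Cfsg.pCore p (G ⧸ centralizer (P : Set G))).comap (QuotientGroup.mk' _) ≤
          Cfsg.pCore p G := by
        apply le_pCore
        · have := pCore_characteristic (G := G ⧸ centralizer (P : Set G)) p
          infer_instance
        · apply IsPGroup.comap_of_ker_isPGroup (pCore_isPGroup p)
          rw [QuotientGroup.ker_mk']
          exact hPp.to_le hc
      rw [← hP] at h4
      exact h4
    exact h3 h2
  -- Step 2
  have hAn : (Cfsg.dStarOf P).Normal := dStarOf_normal_of_normal hPp hPn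
  have hAf := relFam_dStarOf hPp
  have hDA : D ≤ Cfsg.dStarOf P := (hDf.mono hDP hPS).le_dStarOf
  -- Step 3
  obtain ⟨E, hE⟩ : ∃ E, E = normalClosure (D : Set G) := ⟨_, rfl⟩
  have hEn : E.Normal := by rw [hE]; infer_instance
  have hDE : D ≤ E := by rw [hE]; exact le_normalClosure
  have hEA : E ≤ Cfsg.dStarOf P := by rw [hE]; exact normalClosure_le_normal hDA
  have hEc : IsMulCommutative E := isMulCommutative_of_le hAf.2.1 hEA
  have hEP : E ≤ P := hEA.trans hAf.1
  have hEp : IsPGroup p E := hPp.to_le hEP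
  -- Step 4
  have key : ∀ y : G, ⁅⁅E, zpowers y⁆, zpowers y⁆ = ⊥ → ∀ d ∈ D, d * y = y * d := by
    intro y hy
    obtain ⟨s, hs, hsy⟩ := hsyl _ y (hst E hEp y hy)
    obtain ⟨K, hK⟩ : ∃ K, K = ⁅E, zpowers y⁆ := ⟨_, rfl⟩
    rw [← hK] at hy
    have hKE : K ≤ E := by rw [hK]; exact commutator_le_left E _
    have hEK : E ≤ centralizer (K : Set G) :=
      (le_centralizer_iff_isMulCommutative.mpr hEc).trans (centralizer_le (by exact_mod_cast hKE))
    have hyW : y ∈ commInto K (E : Set G) := by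
      refine ⟨?_, ?_⟩
      · rw [commutator_eq_bot_iff_le_centralizer, le_centralizer_iff] at hy
        exact hy (mem_zpowers y)
      · intro e he
        have h1 : ⁅e, y⁆ ∈ K := by rw [hK]; exact commutator_mem_commutator he (mem_zpowers y)
        have h2 : y * e * y⁻¹ * e⁻¹ = (⁅e, y⁆)⁻¹ := by rw [commutatorElement_def]; group
        rw [h2]; exact inv_mem h1
    have hcW : s⁻¹ * y ∈ commInto K (E : Set G) := by
      refine ⟨centralizer_le (by exact_mod_cast hKE) hsy, ?_⟩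
      intro e he
      have h1 : e * (s⁻¹ * y) = (s⁻¹ * y) * e := (mem_centralizer_iff.mp hsy) e he
      have h2 : s⁻¹ * y * e * (s⁻¹ * y)⁻¹ * e⁻¹ = 1 := by
        rw [← h1]; group
      rw [h2]; exact one_mem _
    have hsW : s ∈ commInto K (E : Set G) := by
      have h1 : s = y * (s⁻¹ * y)⁻¹ := by group
      rw [h1]; exact mul_mem hyW (inv_mem hcW)
    have hsW' : s ∈ commInto K (D : Set G) := ⟨hsW.1, fun e he => hsW.2 e (hDE he)⟩
    have h1 := hDf.commute K hs (hDE.trans hEK) hsW'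
    intro d hd
    have h2 : d * (s⁻¹ * y) = (s⁻¹ * y) * d := (mem_centralizer_iff.mp hsy) d (hDE hd)
    have h3 : y = s * (s⁻¹ * y) := by group
    have c1 : Commute d s := h1 d hd
    have c2 : Commute d (s⁻¹ * y) := h2
    rw [h3]
    exact c1.mul_right c2
  -- Step 5
  have key2 : ∀ y : G, ⁅⁅E, zpowers y⁆, zpowers y⁆ = ⊥ → ∀ e ∈ E, e * y = y * e := by
    intro y hy
    have hle : E ≤ centralizer ({y} : Set G) := by
      rw [hE, normalClosure, closure_le]
      intro e he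
      obtain ⟨d, hd, hde⟩ := Group.mem_conjugatesOfSet_iff.mp he
      obtain ⟨g, hg⟩ := isConj_iff.mp hde
      change e ∈ centralizer ({y} : Set G)
      rw [mem_centralizer_singleton_iff]
      -- g⁻¹ y g is quadratic
      have hq : ⁅⁅E, zpowers (g⁻¹ * y * g)⁆, zpowers (g⁻¹ * y * g)⁆ = ⊥ := by
        have h1 : zpowers (g⁻¹ * y * g) = (zpowers y).map (MulAut.conj g⁻¹).toMonoidHom := by
          rw [MonoidHom.map_zpowers]; simp
        have h2 : E = E.map (MulAut.conj g⁻¹).toMonoidHom := (Subgroup.Normal.map_conj_eq E g⁻¹).symm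
        rw [h1]
        nth_rewrite 1 [h2]
        rw [← map_commutator, ← map_commutator, hy, Subgroup.map_bot]
      have h3 := key _ hq d hd
      rw [← hg]
      calc g * d * g⁻¹ * y = g * (d * (g⁻¹ * y * g)) * g⁻¹ := by group
        _ = g * ((g⁻¹ * y * g) * d) * g⁻¹ := by rw [h3]
        _ = y * (g * d * g⁻¹) := by group
    intro e he
    have := hle he
    rw [mem_centralizer_singleton_iff] at this
    exact this
  -- Step 6
  have hEf : RelFam S E := by
    refine ⟨hEP.trans hPS, hEc, ?_⟩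
    intro x _ hcl
    apply key2
    rw [eq_bot_iff, ← hcl]
    exact commutator_mono (commutator_mono le_sup_left le_sup_right) le_sup_right
  have hED : E ≤ D := by rw [hD]; exact hEf.le_dStarOf
  have : D = E := le_antisymm hDE hED
  rw [this]
  exact hEn

end Cfsg.Agent.Lib.Helper17
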