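import Mathlib

set_option autoImplicit false

namespace Cfsg.Agent.Lib.Helper17

open Subgroup MulAction

variable {G A : Type*} [Group G] [CommGroup A]

/-- Transfer in a Frobenius–Wielandt situation with abelian target: if `φ : M → A` kills `M ∩ t⁻¹ M t` for
all `t ∉ M`, then the transfer of `φ` restricts to `φ` on `M`. -/
theorem transfer_eq_of_frobenius_wielandt (M : Subgroup G) [M.FiniteIndex] (φ : M →* A)
    (h : ∀ t : G, t ∉ M → ∀ y : M, t * (y : G) * t⁻¹ ∈ M → φ y = 1) (x : M) :
    MonoidHom.transfer φ (x : G) = φ x := by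
  classical
  have : Fintype (G ⧸ M) := M.fintypeQuotientOfFiniteIndex
  have : Fintype (Quotient (orbitRel (zpowers (x : G)) (G ⧸ M))) := Fintype.ofFinite _
  rw [MonoidHom.transfer_eq_prod_quotient_orbitRel_zpowers_quot]
  obtain ⟨q0, hq0⟩ : ∃ q0 : Quotient (orbitRel (zpowers (x : G)) (G ⧸ M)),
      q0 = Quotient.mk _ ((1 : G) : G ⧸ M) := ⟨_, rfl⟩
  have hfix : ∀ z ∈ zpowers (x : G), z • (((1 : G) : G ⧸ M)) = ((1 : G) : G ⧸ M) := by
    intro z hz
    have hzM : z ∈ M := (zpowers_le.mpr x.2) hz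
    change ((z * 1 : G) : G ⧸ M) = _
    rw [QuotientGroup.eq]
    simpa using hzM
  have hout : ∀ q : Quotient (orbitRel (zpowers (x : G)) (G ⧸ M)), q.out.out ∈ M → q = q0 := by
    intro q hq
    have h1 : q.out = ((1 : G) : G ⧸ M) := by
      rw [← QuotientGroup.out_eq' q.out, QuotientGroup.eq]
      simpa using hq
    rw [← Quotient.out_eq q, h1, hq0]
  have hq0out : q0.out = ((1 : G) : G ⧸ M) := by
    have h1 : (orbitRel (zpowers (x : G)) (G ⧸ M)) q0.out ((1 : G) : G ⧸ M) := by
      apply Quotient.exact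
      rw [Quotient.out_eq, hq0]
    rw [orbitRel_apply] at h1
    obtain ⟨z, hz⟩ := h1
    rw [← hz]
    exact hfix z z.2
  rw [Finset.prod_eq_single q0]
  · -- the term at q0
    have hper : Function.minimalPeriod ((x : G) • ·) q0.out = 1 := by
      rw [Function.minimalPeriod_eq_one_iff_isFixedPt, hq0out]
      exact hfix _ (mem_zpowers _)
    have htM : q0.out.out ∈ M := by
      have h1 : ((q0.out.out : G) : G ⧸ M) = ((1 : G) : G ⧸ M) := by
        rw [QuotientGroup.out_eq', hq0out]
      rw [QuotientGroup.eq] at h1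
      have h2 : (q0.out.out)⁻¹ ∈ M := by simpa using h1
      exact (inv_mem_iff).mp h2
    have h2 : (⟨q0.out.out⁻¹ * (x : G) ^ Function.minimalPeriod ((x : G) • ·) q0.out * q0.out.out,
        QuotientGroup.out_conj_pow_minimalPeriod_mem M (x : G) q0.out⟩ : M) =
        (⟨q0.out.out, htM⟩ : M)⁻¹ * x * ⟨q0.out.out, htM⟩ := by
      apply Subtype.ext
      simp [hper]
    rw [h2, map_mul, map_mul, map_inv, mul_comm, ← mul_assoc, mul_inv_cancel, one_mul]
  · intro q _ hq
    apply h q.out.out (fun hmem => hq (hout q hmem))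
    have h3 : q.out.out * (q.out.out⁻¹ * (x : G) ^ Function.minimalPeriod ((x : G) • ·) q.out * q.out.out) *
        q.out.out⁻¹ = (x : G) ^ Function.minimalPeriod ((x : G) • ·) q.out := by group
    simp only
    rw [h3]
    exact pow_mem x.2 _
  · intro hq; exact absurd (Finset.mem_univ _) hq

end Cfsg.Agent.Lib.Helper17
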