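import Mathlib
import Cfsg.Agent.Lib.Helper17.Basic
import Cfsg.Agent.Lib.Helper17.FWTransfer

set_option autoImplicit false

namespace Cfsg.Agent.Lib.Helper17

open Subgroup

variable {G : Type*} [Group G]

theorem eq_or_eq_of_isCoatom_subgroupOf {H M X : Subgroup G} (hmaxH : IsCoatom (H.subgroupOf M))
    (hHX : H ≤ X) (hXM : X ≤ M) : X = H ∨ X = M := by
  by_cases h : X ≤ H
  · exact Or.inl (le_antisymm h hHX)
  · right
    have hlt : H.subgroupOf M < X.subgroupOf M := by
      refine lt_of_le_of_ne (Subgroup.comap_mono hHX) ?_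
      intro heq
      rw [subgroupOf_inj] at heq
      apply h
      rw [inf_eq_left.mpr hXM, inf_eq_left.mpr (hHX.trans hXM)] at heq
      rw [heq]
    have := hmaxH.2 _ hlt
    rw [subgroupOf_eq_top] at this
    exact le_antisymm hXM this

/-- kernel of the transfer in a Frobenius–Wielandt situation -/
theorem exists_normal_of_fw {A : Type*} [CommGroup A] (M : Subgroup G) [M.FiniteIndex] (φ : M →* A)
    (h : ∀ t : G, t ∉ M → ∀ y : M, t * (y : G) * t⁻¹ ∈ M → φ y = 1) :
    ∃ K : Subgroup G, K.Normal ∧ (∀ x : M, (x : G) ∈ K ↔ φ x = 1) ∧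
      ∀ a b : G, a * b * a⁻¹ * b⁻¹ ∈ K := by
  refine ⟨(MonoidHom.transfer φ).ker, inferInstance, ?_, ?_⟩
  · intro x
    rw [MonoidHom.mem_ker, transfer_eq_of_frobenius_wielandt M φ h x]
  · intro a b
    rw [MonoidHom.mem_ker]
    simp [mul_comm]

theorem isCyclic_quotient_of_isCoatom {M : Type*} [Group M] (H : Subgroup M) [H.Normal] (hmax : IsCoatom H) :
    IsCyclic (M ⧸ H) := by
  by_cases hall : ∀ a : M ⧸ H, a = 1
  · exact ⟨1, fun a => by rw [hall a]; exact one_mem (zpowers (1 : M ⧸ H))⟩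
  · push Not at hall
    obtain ⟨a, ha⟩ := hall
    refine ⟨a, fun b => ?_⟩
    obtain ⟨a', rfl⟩ := QuotientGroup.mk_surjective a
    have hlt : H < (zpowers (QuotientGroup.mk a' : M ⧸ H)).comap (QuotientGroup.mk' H) := by
      refine lt_of_le_of_ne ?_ ?_
      · intro h hh
        rw [mem_comap]
        have : QuotientGroup.mk' H h = 1 := (QuotientGroup.eq_one_iff h).mpr hh
        rw [this]; exact one_mem _
      · intro heq
        apply ha
        rw [QuotientGroup.eq_one_iff, heq, mem_comap]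
        exact mem_zpowers _
    have htop := hmax.2 _ hlt
    obtain ⟨b', rfl⟩ := QuotientGroup.mk_surjective b
    have : b' ∈ (zpowers (QuotientGroup.mk a' : M ⧸ H)).comap (QuotientGroup.mk' H) := by
      rw [htop]; trivial
    exact this

/-- Frobenius–Wielandt kernel for a normal maximal subgroup `H` of `M`. -/
theorem exists_normal_of_fw_coatom [Finite G] {H M : Subgroup G} (hHM : H ≤ M)
    (hn : (H.subgroupOf M).Normal) (hmaxH : IsCoatom (H.subgroupOf M))
    (hfw : ∀ g : G, g ∉ M → M ⊓ M.map (MulAut.conj g).toMonoidHom ≤ H) :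
    ∃ K : Subgroup G, K.Normal ∧ H ≤ K ∧ K ⊓ M ≤ H ∧ ∀ a b : G, a * b * a⁻¹ * b⁻¹ ∈ K := by
  have hcyc := isCyclic_quotient_of_isCoatom (H.subgroupOf M) hmaxH
  let _ : CommGroup (↥M ⧸ H.subgroupOf M) := IsCyclic.commGroup
  obtain ⟨K, hKn, hK, hKab⟩ := exists_normal_of_fw M (QuotientGroup.mk' (H.subgroupOf M)) (by
    intro t ht y hy
    have h1 : (y : G) ∈ M ⊓ M.map (MulAut.conj t⁻¹).toMonoidHom := by
      refine Subgroup.mem_inf.mpr ⟨y.2, ?_⟩
      rw [mem_map_conj_iff]
      simpa using hy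
    have h2 := hfw t⁻¹ (fun h => ht (by simpa using h)) h1
    exact (QuotientGroup.eq_one_iff y).mpr (mem_subgroupOf.mpr h2))
  refine ⟨K, hKn, ?_, ?_, hKab⟩
  · intro h hh
    exact (hK ⟨h, hHM hh⟩).mpr ((QuotientGroup.eq_one_iff _).mpr (mem_subgroupOf.mpr hh))
  · intro k hk
    obtain ⟨hk1, hk2⟩ := Subgroup.mem_inf.mp hk
    have := (hK ⟨k, hk2⟩).mp hk1
    exact mem_subgroupOf.mp ((QuotientGroup.eq_one_iff _).mp this)

theorem exists_normal_inf_le [Finite G] (H M : Subgroup G) (hHM : H ≤ M)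
    (hcl : ∀ g : G, (H ⊔ H.map (MulAut.conj g).toMonoidHom) ⊓ M = H)
    (hmaxH : IsCoatom (H.subgroupOf M)) (hmaxM : IsCoatom M) :
    ∃ K : Subgroup G, K.Normal ∧ H ≤ K ∧ K ⊓ M ≤ H := by
  have hF2 : ∀ g : G, H.map (MulAut.conj g).toMonoidHom ⊓ M ≤ H := by
    intro g
    calc H.map (MulAut.conj g).toMonoidHom ⊓ M ≤ (H ⊔ H.map (MulAut.conj g).toMonoidHom) ⊓ M :=
          inf_le_inf_right _ le_sup_right
      _ = H := hcl g
  have hF3 : ∀ m ∈ M, ∀ h ∈ H, m * h * m⁻¹ ∈ H := by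
    intro m hm h hh
    apply hF2 m
    exact Subgroup.mem_inf.mpr ⟨⟨h, hh, rfl⟩, mul_mem (mul_mem hm (hHM hh)) (inv_mem hm)⟩
  by_cases hHn : H.Normal
  · exact ⟨H, hHn, le_rfl, inf_le_left⟩
  have hMN : M ≤ normalizer (H : Set G) := le_normalizer_iff.mpr hF3
  have hN : normalizer (H : Set G) = M :=
    (hmaxM.le_iff_eq (fun h => hHn (normalizer_eq_top_iff.mp h))).mp hMN
  by_cases hB : ∀ g : G, g ∉ M → M ⊓ M.map (MulAut.conj g).toMonoidHom ≤ H
  · obtain ⟨K, h1, h2, h3, _⟩ := exists_normal_of_fw_coatom hHM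
      (by rw [normal_subgroupOf_iff_le_normalizer hHM]; exact hMN) hmaxH hB
    exact ⟨K, h1, h2, h3⟩
  · push Not at hB
    obtain ⟨g, hg, hgd⟩ := hB
    obtain ⟨d, hd, hdH⟩ := SetLike.not_le_iff_exists.mp hgd
    obtain ⟨hdM, hdMg⟩ := Subgroup.mem_inf.mp hd
    obtain ⟨L, hL⟩ : ∃ L, L = H ⊔ H.map (MulAut.conj g).toMonoidHom := ⟨_, rfl⟩
    refine ⟨L, ?_, by rw [hL]; exact le_sup_left, by rw [hL, hcl g]⟩
    have hdL : d ∈ normalizer (L : Set G) := by
      rw [mem_normalizer_iff_map_conj_eq, hL, Subgroup.map_sup]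
      have h1 : H.map (MulAut.conj d : G →* G) = H := mem_normalizer_iff_map_conj_eq.mp (hMN hdM)
      have h2 : (H.map (MulAut.conj g).toMonoidHom).map (MulAut.conj d : G →* G) =
          H.map (MulAut.conj g).toMonoidHom := by
        apply map_conj_eq_of_le
        rintro _ ⟨_, ⟨h, hh, rfl⟩, rfl⟩
        obtain ⟨m, hm, rfl⟩ := hdMg
        refine ⟨m * h * m⁻¹, hF3 m hm h hh, ?_⟩
        simp [MulAut.conj_apply, mul_assoc]
      rw [h1, h2]
    have hHL : H ≤ normalizer (L : Set G) := by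
      refine le_trans ?_ le_normalizer
      rw [hL]; exact le_sup_left
    have hML : M ≤ normalizer (L : Set G) := by
      have h1 : H ⊔ zpowers d ≤ M := sup_le hHM (zpowers_le.mpr hdM)
      rcases eq_or_eq_of_isCoatom_subgroupOf hmaxH le_sup_left h1 with h2 | h2
      · exact absurd (h2 ▸ (le_sup_right (a := H) (mem_zpowers d))) hdH
      · rw [← h2]
        exact sup_le hHL (zpowers_le.mpr hdL)
    have hne : normalizer (L : Set G) ≠ M := by
      intro heq
      have h1 : H.map (MulAut.conj g).toMonoidHom ≤ M := by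
        rw [← heq]
        refine le_trans ?_ le_normalizer
        rw [hL]; exact le_sup_right
      have h2 : H.map (MulAut.conj g).toMonoidHom ≤ H := (le_inf le_rfl h1).trans (hF2 g)
      apply hg
      rw [← hN]
      exact mem_normalizer_of_map_conj_le h2
    have htop := hmaxM.2 _ (lt_of_le_of_ne hML hne.symm)
    exact normalizer_eq_top_iff.mp htop

end Cfsg.Agent.Lib.Helper17
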