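import Mathlib
import Cfsg.Agent.Lib.Helper17.Basic
import Cfsg.Agent.Lib.Helper17.Cores2
import Cfsg.Agent.Lib.Helper17.DStar2
import Cfsg.Agent.S0035

set_option autoImplicit false

namespace Cfsg.Agent.Lib.Helper17

open Subgroup

universe u

/-- An isolated `p`-element which centralizes every `p'`-subgroup it normalizes is central. -/
theorem isolated_central_aux (p : ℕ) [Fact p.Prime] : ∀ n : ℕ, ∀ (G : Type u) [Group G] [Finite G],
    Nat.card G = n → ∀ x : G, (∃ k : ℕ, orderOf x = p ^ k) → Cfsg.IsIsolated x →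
    (∀ H : Subgroup G, (Nat.card H).Coprime p → (∀ h ∈ H, x * h * x⁻¹ ∈ H) → ∀ h ∈ H, x * h = h * x) →
    x ∈ Subgroup.center G := by
  intro n
  induction n using Nat.strong_induction_on with
  | _ n ih =>
  intro G _ _ hn x hxo hiso hb
  have hp : p.Prime := Fact.out
  by_contra hxZ
  -- proper subgroups containing `x` centralize `x`
  have hA : ∀ H : Subgroup G, H ≠ ⊤ → x ∈ H → H ≤ centralizer ({x} : Set G) := by
    intro H hH hxH
    have hlt : Nat.card H < n := by
      rw [← hn, ← Subgroup.card_top (G := G)]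
      exact card_lt_card_of_lt (lt_top_iff_ne_top.mpr hH)
    have h1 := ih _ hlt ↥H rfl ⟨x, hxH⟩ (by rw [Subgroup.orderOf_mk]; exact hxo) ?_ ?_
    · intro h hh
      rw [mem_centralizer_singleton_iff]
      have := (mem_center_iff.mp h1) ⟨h, hh⟩
      exact congrArg Subtype.val this
    · intro g hc
      apply Subtype.ext
      have h' : x * ((g : G) * x * (g : G)⁻¹) = (g : G) * x * (g : G)⁻¹ * x := by
        have := congrArg Subtype.val hc.eq
        simpa using this
      exact hiso g h'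
    · intro L hL hnorm l hl
      have h2 := hb (L.map H.subtype)
        (by rw [card_map_of_injective H.subtype_injective]; exact hL) ?_ l ⟨l, hl, rfl⟩
      · exact Subtype.ext h2
      · rintro _ ⟨l', hl', rfl⟩
        exact ⟨_, hnorm l' hl', rfl⟩
  obtain ⟨M, hM⟩ : ∃ M, M = centralizer ({x} : Set G) := ⟨_, rfl⟩
  have hmemM : ∀ g, g ∈ M ↔ g * x = x * g := by
    intro g; rw [hM, mem_centralizer_singleton_iff]
  have hxM : x ∈ M := (hmemM x).mpr rfl
  have hMtop : M ≠ ⊤ := by
    intro h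
    apply hxZ
    rw [mem_center_iff]
    intro g
    exact (hmemM g).mp (by rw [h]; trivial)
  have hZM : center G ≤ M := by
    intro z hz
    exact (hmemM z).mpr ((mem_center_iff.mp hz) x).symm
  have hgen : ∀ g, g ∉ M → ∀ m ∈ M, g * m * g⁻¹ ∈ M → g * m * g⁻¹ ∈ center G := by
    intro g hg m hm hm2
    have htop : closure ({x, g * x * g⁻¹} : Set G) = ⊤ := by
      by_contra hne
      have h1 := hA _ hne (subset_closure (by simp))
      have h2 : g * x * g⁻¹ ∈ centralizer ({x} : Set G) := h1 (subset_closure (by simp))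
      rw [mem_centralizer_singleton_iff] at h2
      have h3 := hiso g h2.symm
      apply hg
      rw [hmemM]
      calc g * x = (g * x * g⁻¹) * g := by group
        _ = x * g := by rw [h3]
    have hle : closure ({x, g * x * g⁻¹} : Set G) ≤ centralizer ({g * m * g⁻¹} : Set G) := by
      rw [closure_le]
      rintro y (rfl | rfl)
      · change y ∈ centralizer ({g * m * g⁻¹} : Set G)
        rw [mem_centralizer_singleton_iff]
        exact ((hmemM _).mp hm2).symm
      · change g * x * g⁻¹ ∈ centralizer ({g * m * g⁻¹} : Set G)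
        rw [mem_centralizer_singleton_iff]
        have h1 := (hmemM _).mp hm
        calc g * x * g⁻¹ * (g * m * g⁻¹) = g * (x * m) * g⁻¹ := by group
          _ = g * (m * x) * g⁻¹ := by rw [h1]
          _ = g * m * g⁻¹ * (g * x * g⁻¹) := by group
    rw [htop] at hle
    rw [mem_center_iff]
    intro y
    have := hle (mem_top y)
    rw [mem_centralizer_singleton_iff] at this
    exact this
  -- the quotient by the centre is a Frobenius group
  obtain ⟨Z, hZ⟩ : ∃ Z, Z = center G := ⟨_, rfl⟩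
  have hZn : Z.Normal := by rw [hZ]; infer_instance
  rw [← hZ] at hZM hgen hxZ
  obtain ⟨Hb, hHb⟩ : ∃ Hb, Hb = M.map (QuotientGroup.mk' Z) := ⟨_, rfl⟩
  have hmemHb : ∀ g : G, (QuotientGroup.mk g : G ⧸ Z) ∈ Hb ↔ g ∈ M := by
    intro g
    rw [hHb]
    constructor
    · rintro ⟨m, hm, hmg⟩
      have h1 : m⁻¹ * g ∈ Z := QuotientGroup.eq.mp hmg
      have h2 : g = m * (m⁻¹ * g) := by group
      rw [h2]
      exact mul_mem hm (hZM h1)
    · intro hg
      exact ⟨g, hg, rfl⟩
  have hF : Cfsg.IsFrobeniusComplement Hb := by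
    refine ⟨?_, ?_, ?_⟩
    · intro hbot
      have h1 : (QuotientGroup.mk x : G ⧸ Z) ∈ Hb := (hmemHb x).mpr hxM
      rw [hbot, mem_bot, QuotientGroup.eq_one_iff] at h1
      exact hxZ h1
    · intro htop
      apply hMtop
      rw [eq_top_iff]
      intro g _
      exact (hmemHb g).mp (by rw [htop]; trivial)
    · intro gb hgb
      obtain ⟨g, rfl⟩ := QuotientGroup.mk_surjective gb
      have hg : g ∉ M := fun h => hgb ((hmemHb g).mpr h)
      rw [eq_bot_iff]
      intro a ha
      obtain ⟨ha1, ha2⟩ := Subgroup.mem_inf.mp ha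
      obtain ⟨b, hb', hba⟩ := Subgroup.mem_smul_pointwise_iff_exists _ _ _ |>.mp ha2
      obtain ⟨m, rfl⟩ := QuotientGroup.mk_surjective b
      have hm : m ∈ M := (hmemHb m).mp hb'
      have hba' : a = (QuotientGroup.mk (g * m * g⁻¹) : G ⧸ Z) := by
        rw [← hba]; simp [MulAut.smul_def]
      rw [hba'] at ha1 ⊢
      have h1 := hgen g hg m hm ((hmemHb _).mp ha1)
      rw [mem_bot, QuotientGroup.eq_one_iff]
      exact h1
  obtain ⟨Nb, -, hNbn, hNbc⟩ := Cfsg.Agent.S0035.result Hb hF
  obtain ⟨K, hK⟩ : ∃ K, K = Nb.comap (QuotientGroup.mk' Z) := ⟨_, rfl⟩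
  have hKn : K.Normal := by rw [hK]; infer_instance
  have hZK : Z ≤ K := by
    intro z hz
    rw [hK, mem_comap]
    have : QuotientGroup.mk' Z z = 1 := (QuotientGroup.eq_one_iff z).mpr hz
    rw [this]; exact one_mem _
  have hKM : K ⊓ M ≤ Z := by
    intro k hk
    obtain ⟨hk1, hk2⟩ := Subgroup.mem_inf.mp hk
    have h1 : (QuotientGroup.mk k : G ⧸ Z) ∈ Nb ⊓ Hb :=
      Subgroup.mem_inf.mpr ⟨by rw [hK] at hk1; exact hk1, (hmemHb k).mpr hk2⟩
    rw [hNbc.disjoint.eq_bot, mem_bot, QuotientGroup.eq_one_iff] at h1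
    exact h1
  have hNbcop : (Nat.card Nb).Coprime p := by
    obtain ⟨k, hk⟩ := hxo
    have hpx : IsPGroup p (zpowers x) := IsPGroup.of_card (n := k) (by rw [Nat.card_zpowers, hk])
    obtain ⟨S, hS⟩ := hpx.exists_le_sylow
    have hSM : (S : Subgroup G) ≤ M := by
      intro y hy
      exact (hmemM y).mpr (isolated_comm_of_pGroup hiso S.2 (hS (mem_zpowers x)) y hy)
    have h1 : Nat.card Nb = Hb.index := by
      have h2 := hNbc.card_mul_card
      have h3 := Hb.card_mul_index
      have : Nat.card Hb * Nat.card Nb = Nat.card Hb * Hb.index := by rw [h3, mul_comm, h2]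
      exact Nat.eq_of_mul_eq_mul_left Nat.card_pos this
    have h4 : Hb.index ∣ M.index := by
      rw [hHb]; exact Subgroup.index_map_dvd M (QuotientGroup.mk'_surjective Z)
    have h5 : M.index ∣ (S : Subgroup G).index := Subgroup.index_dvd_of_le hSM
    rw [Nat.coprime_comm, Nat.Prime.coprime_iff_not_dvd hp, h1]
    exact fun h => S.not_dvd_index (h.trans (h4.trans h5))
  obtain ⟨P⟩ : Nonempty (Sylow p Z) := inferInstance
  obtain ⟨Zp, hZp⟩ : ∃ Zp, Zp = (P : Subgroup Z).map Z.subtype := ⟨_, rfl⟩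
  have hZpZ : Zp ≤ Z := by rw [hZp]; exact map_subtype_le _
  have hZpp : IsPGroup p Zp := by rw [hZp]; exact P.2.map _
  have hr1 : Zp.relIndex Z = (P : Subgroup Z).index := by
    rw [hZp, relIndex, subgroupOf, comap_map_eq_self_of_injective Z.subtype_injective]
  have hr2 : Z.relIndex K = Nat.card Nb := by
    have h1 := Subgroup.relIndex_ker (QuotientGroup.mk' Z) (K := K)
    rw [QuotientGroup.ker_mk', hK, map_comap_eq_self_of_surjective (QuotientGroup.mk'_surjective Z)] at h1
    rw [hK]; exact h1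
  have hr3 : Zp.relIndex K = (P : Subgroup Z).index * Nat.card Nb := by
    rw [← relIndex_mul_relIndex Zp Z K hZpZ hZK, hr1, hr2]
  have hPcop : ((P : Subgroup Z).index).Coprime p := by
    rw [Nat.coprime_comm, Nat.Prime.coprime_iff_not_dvd hp]
    exact P.not_dvd_index
  obtain ⟨a, ha⟩ := IsPGroup.iff_card.mp hZpp
  have hcop : (Nat.card Zp).Coprime (Zp.relIndex K) := by
    rw [ha, hr3]
    apply Nat.Coprime.pow_left
    exact (Nat.Coprime.mul_left hPcop hNbcop).symm
  obtain ⟨Q, hQn, hQK, hQc⟩ := exists_normal_complement_of_central Zp K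
    (hZpZ.trans (by rw [hZ])) (hZpZ.trans hZK) hcop
  have hQcop : (Nat.card Q).Coprime p := by
    rw [hQc, hr3]; exact Nat.Coprime.mul_left hPcop hNbcop
  have hQx := hb Q hQcop (fun h hh => hQn.conj_mem h hh x)
  have hQM : Q ≤ M := fun q hq => (hmemM q).mpr (hQx q hq).symm
  have hQZ : Q ≤ Z := fun q hq => hKM (Subgroup.mem_inf.mpr ⟨hQK hq, hQM hq⟩)
  have hd : Nat.card Q ∣ Nat.card Z := Subgroup.card_dvd_of_le hQZ
  have hcZ : Nat.card Z = (P : Subgroup Z).index * Nat.card Zp := by
    rw [← hr1]; exact (relIndex_mul_card_of_le hZpZ).symm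
  rw [hQc, hr3, hcZ] at hd
  have hpos : 0 < (P : Subgroup Z).index := Nat.pos_of_ne_zero (Subgroup.index_ne_zero_of_finite)
  have hd2 : Nat.card Nb ∣ Nat.card Zp := Nat.dvd_of_mul_dvd_mul_left hpos hd
  have h1 : Nat.card Nb = 1 := by
    apply Nat.Coprime.eq_one_of_dvd _ hd2
    rw [ha]
    exact Nat.Coprime.pow_right _ hNbcop
  have hNbot : Nb = ⊥ := Subgroup.card_eq_one.mp h1
  apply hF.2.1
  have := hNbc.sup_eq_top
  rw [hNbot, bot_sup_eq] at this
  exact this

end Cfsg.Agent.Lib.Helper17
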