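import Cfsg.Agent.Lib.Helper17.PiClosed3

/-!
# `π`-closed groups: characterization
-/

set_option autoImplicit false

namespace Cfsg.Agent.Lib.Helper17

universe u

theorem piClosed_step {π : Set ℕ} {G : Type u} [Group G] [Finite G] (hstar : Star π G)
    (Y X : Subgroup G) [Y.Normal] (A₀ : Subgroup G) (hA₀ : ∀ x, x ∈ A₀ ↔ x ∈ Y ∧ PiElt π x)
    (h : PiNum π (Y.relIndex X) ∨ PiNum πᶜ (Y.relIndex X)) :
    ∃ E : Subgroup G, ∀ x, x ∈ E ↔ x ∈ X ∧ PiElt π x := by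
  have hA' : ∀ x : X, x ∈ A₀.subgroupOf X ↔ x ∈ Y.subgroupOf X ∧ PiElt π x := by
    intro x
    rw [Subgroup.mem_subgroupOf, Subgroup.mem_subgroupOf, hA₀, PiElt.coe_iff]
  have hcard : Nat.card (X ⧸ Y.subgroupOf X) = Y.relIndex X := by
    rw [← Subgroup.index_eq_card]; rfl
  have hL : ∃ L : Subgroup (X ⧸ Y.subgroupOf X), ∀ y, y ∈ L ↔ PiElt π y := by
    rcases h with h | h
    · refine ⟨⊤, fun y => ⟨fun _ => ?_, fun _ => Subgroup.mem_top _⟩⟩
      exact PiNum.of_dvd (hcard ▸ h) (orderOf_dvd_natCard y)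
    · refine ⟨⊥, fun y => ⟨fun hy => ?_, fun hy => ?_⟩⟩
      · rw [Subgroup.mem_bot] at hy
        rw [hy]; exact PiElt.one π
      · rw [Subgroup.mem_bot]
        exact eq_one_of_piElt hy (hcard ▸ h) pow_card_eq_one'
  obtain ⟨L, hL⟩ := hL
  obtain ⟨E', hE'⟩ := piClosed_ext (hstar.subgroup X) (Y.subgroupOf X) (A₀.subgroupOf X) hA' L hL
  refine ⟨E'.map X.subtype, fun x => ⟨?_, ?_⟩⟩
  · rintro ⟨e, he, rfl⟩
    exact ⟨e.2, (PiElt.coe_iff e).mpr ((hE' e).mp he)⟩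
  · rintro ⟨hxX, hx⟩
    exact ⟨⟨x, hxX⟩, (hE' _).mpr ((PiElt.coe_iff (⟨x, hxX⟩ : X)).mp hx), rfl⟩

theorem piClosed_of_chain {π : Set ℕ} {G : Type u} [Group G] [Finite G] (hstar : Star π G)
    (n : ℕ) (H : Fin (n + 1) → Subgroup G) (h0 : H 0 = ⊥) (hlast : H (Fin.last n) = ⊤)
    (hnorm : ∀ i, (H i).Normal)
    (hstep : ∀ i : Fin n, PiNum π ((H i.castSucc).relIndex (H i.succ)) ∨
      PiNum πᶜ ((H i.castSucc).relIndex (H i.succ))) :
    ∃ E : Subgroup G, ∀ x, x ∈ E ↔ PiElt π x := by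
  have main : ∀ i : Fin (n + 1), ∃ E : Subgroup G, ∀ x, x ∈ E ↔ x ∈ H i ∧ PiElt π x := by
    intro i
    induction i using Fin.induction with
    | zero =>
      refine ⟨⊥, fun x => ⟨fun hx => ?_, fun hx => ?_⟩⟩
      · rw [Subgroup.mem_bot] at hx
        rw [hx]; exact ⟨Subgroup.one_mem _, PiElt.one π⟩
      · rw [h0] at hx; exact hx.1
    | succ i ih =>
      obtain ⟨A₀, hA₀⟩ := ih
      haveI := hnorm i.castSucc
      exact piClosed_step hstar (H i.castSucc) (H i.succ) A₀ hA₀ (hstep i)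
  obtain ⟨E, hE⟩ := main (Fin.last n)
  refine ⟨E, fun x => ?_⟩
  rw [hE, hlast]
  exact ⟨fun h => h.2, fun h => ⟨Subgroup.mem_top _, h⟩⟩

theorem piClosed_normal {π : Set ℕ} {G : Type u} [Group G] (O : Subgroup G)
    (hO : ∀ x, x ∈ O ↔ PiElt π x) : O.Normal :=
  ⟨fun a ha g => (hO _).mpr (((hO a).mp ha).conj g)⟩

theorem piClosed_card {π : Set ℕ} {G : Type u} [Group G] [Finite G] (O : Subgroup G)
    (hO : ∀ x, x ∈ O ↔ PiElt π x) : PiNum π (Nat.card O) := by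
  intro q hq hd
  haveI : Fact q.Prime := ⟨hq⟩
  obtain ⟨z, hz⟩ := exists_prime_orderOf_dvd_card' q hd
  have h1 : PiElt π z := (PiElt.coe_iff z).mp ((hO z).mp z.2)
  exact h1 q hq (hz ▸ dvd_rfl)

theorem piClosed_index {π : Set ℕ} {G : Type u} [Group G] [Finite G] (O : Subgroup G)
    (hO : ∀ x, x ∈ O ↔ PiElt π x) : PiNum πᶜ O.index := by
  intro q hq hd hqπ
  haveI : Fact q.Prime := ⟨hq⟩
  obtain ⟨Q⟩ : Nonempty (Sylow q G) := inferInstance
  have hQO : (Q : Subgroup G) ≤ O := by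
    intro u hu
    rw [hO]
    obtain ⟨j, hj⟩ := Q.2 ⟨u, hu⟩
    exact PiElt.of_pow_eq_one (PiNum.prime_pow hq hqπ j) (congrArg Subtype.val hj)
  exact Q.not_dvd_index (hd.trans (Subgroup.index_dvd_of_le hQO))

theorem piClosed_hom {π : Set ℕ} {G : Type u} [Group G] [Finite G] (O : Subgroup G)
    (hO : ∀ x, x ∈ O ↔ PiElt π x) (H : Subgroup G) (hH : PiNum πᶜ (Nat.card H)) :
    PiNum πᶜ ((Subgroup.centralizer (H : Set G)).relIndex (Subgroup.normalizer (H : Set G))) := by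
  intro p hp hd hpπ
  haveI : Fact p.Prime := ⟨hp⟩
  haveI hOn := piClosed_normal O hO
  have hd' : p ∣ Nat.card (Subgroup.normalizer (H : Set G) ⧸
      (Subgroup.centralizer (H : Set G)).subgroupOf (Subgroup.normalizer (H : Set G))) := by
    rw [← Subgroup.index_eq_card]; exact hd
  obtain ⟨z, hz⟩ := exists_prime_orderOf_dvd_card' p hd'
  obtain ⟨n, rfl⟩ := QuotientGroup.mk'_surjective _ z
  have hnp : (n : G) ^ (p ^ 1) ∈ Subgroup.centralizer (H : Set G) := by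
    have h1 : n ^ p ∈ (Subgroup.centralizer (H : Set G)).subgroupOf (Subgroup.normalizer (H : Set G)) := by
      rw [← QuotientGroup.eq_one_iff, ← QuotientGroup.mk'_apply, map_pow, ← hz, pow_orderOf_eq_one]
    rw [Subgroup.mem_subgroupOf] at h1
    rw [pow_one]; exact h1
  obtain ⟨n', hn'z, ⟨a, hn'a⟩, hn'C⟩ := exists_pPart hp (n : G) _ 1 hnp
  have hn'N : n' ∈ Subgroup.normalizer (H : Set G) := (Subgroup.zpowers_le.mpr n.2) hn'z
  have hn'O : n' ∈ O := (hO n').mpr (PiElt.of_pow_eq_one (PiNum.prime_pow hp hpπ a) hn'a)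
  have hn'cen : n' ∈ Subgroup.centralizer (H : Set G) := by
    rw [Subgroup.mem_centralizer_iff]
    intro h hh
    have h1 : n' * h * n'⁻¹ * h⁻¹ ∈ O := by
      have e : n' * h * n'⁻¹ * h⁻¹ = n' * (h * n'⁻¹ * h⁻¹) := by group
      rw [e]
      exact O.mul_mem hn'O (hOn.conj_mem _ (O.inv_mem hn'O) h)
    have h2 : n' * h * n'⁻¹ * h⁻¹ ∈ H :=
      H.mul_mem ((Subgroup.mem_normalizer_iff.mp hn'N h).mp hh) (H.inv_mem hh)
    have h3 : n' * h * n'⁻¹ * h⁻¹ = 1 := by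
      apply eq_one_of_piElt ((hO _).mp h1) hH
      have : (⟨_, h2⟩ : H) ^ Nat.card H = 1 := pow_card_eq_one'
      exact congrArg Subtype.val this
    have h4 : n' * h = h * n' := by
      have e : n' * h = (n' * h * n'⁻¹ * h⁻¹) * (h * n') := by group
      rw [e, h3, one_mul]
    exact h4.symm
  have hnC : (n : G) ∈ Subgroup.centralizer (H : Set G) := by
    have e : (n : G) = n' * (n'⁻¹ * n) := by group
    rw [e]
    exact Subgroup.mul_mem _ hn'cen hn'C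
  have hz1 : QuotientGroup.mk' ((Subgroup.centralizer (H : Set G)).subgroupOf
      (Subgroup.normalizer (H : Set G))) n = 1 := by
    apply (QuotientGroup.eq_one_iff _).mpr
    rw [Subgroup.mem_subgroupOf]; exact hnC
  rw [hz1, orderOf_one] at hz
  exact hp.one_lt.ne hz

end Cfsg.Agent.Lib.Helper17
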