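import Mathlib
import Cfsg.Agent.Lib.Helper4.Supersolvable

/-! Chains of normal subgroups with one-generator steps. -/

set_option autoImplicit false

namespace Cfsg.Agent.Lib.Helper17

open Cfsg

universe u

/-- `SCrel A B`: there is a chain of normal subgroups from `A` up to `B` with one-generator steps. -/
inductive SCrel {G : Type u} [Group G] : Subgroup G → Subgroup G → Prop
  | refl (A : Subgroup G) (hA : A.Normal) : SCrel A A
  | step {A B : Subgroup G} (g : G) (h : SCrel A B) (hn : (B ⊔ Subgroup.zpowers g).Normal) :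
      SCrel A (B ⊔ Subgroup.zpowers g)

variable {G : Type u} [Group G]

theorem SCrel.trans {A B C : Subgroup G} (h1 : SCrel A B) (h2 : SCrel B C) : SCrel A C := by
  induction h2 with
  | refl _ => exact h1
  | step g _ hn ih => exact SCrel.step g ih hn

theorem SCrel.normal_right {A B : Subgroup G} (h : SCrel A B) : B.Normal := by
  cases h with
  | refl hA => exact hA
  | step g _ hn => exact hn

theorem SCrel.step' {A B C : Subgroup G} (g : G) (h : SCrel A B) (hC : C = B ⊔ Subgroup.zpowers g)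
    (hn : C.Normal) : SCrel A C := by
  subst hC
  exact SCrel.step g h hn

theorem SCrel.comap {G' : Type u} [Group G'] (f : G →* G') (hf : Function.Surjective f)
    {A B : Subgroup G'} (h : SCrel A B) : SCrel (A.comap f) (B.comap f) := by
  induction h with
  | refl hA => exact SCrel.refl _ (hA.comap f)
  | step g _ hn ih =>
    obtain ⟨g', rfl⟩ := hf g
    exact SCrel.step' g' ih (Cfsg.Agent.Lib.Helper4.comap_sup_zpowers f hf _ g') (hn.comap f)

theorem SCrel.exists_chain {A B : Subgroup G} (h : SCrel A B) :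
    ∃ (n : ℕ) (K : Fin (n + 1) → Subgroup G), K 0 = A ∧ K (Fin.last n) = B ∧ (∀ i, (K i).Normal) ∧
      ∀ i : Fin n, ∃ g : G, K i.succ = K i.castSucc ⊔ Subgroup.zpowers g := by
  induction h with
  | refl hA => exact ⟨0, fun _ => A, rfl, rfl, fun _ => hA, fun i => i.elim0⟩
  | @step B g _ hn ih =>
    obtain ⟨n, K, h0, hl, hnorm, hstep⟩ := ih
    refine ⟨n + 1, Fin.snoc K (B ⊔ Subgroup.zpowers g), ?_, ?_, ?_, ?_⟩
    · have : (0 : Fin (n + 1 + 1)) = Fin.castSucc (0 : Fin (n + 1)) := rfl
      rw [this, Fin.snoc_castSucc, h0]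
    · rw [Fin.snoc_last]
    · intro i
      refine Fin.lastCases ?_ (fun j => ?_) i
      · rw [Fin.snoc_last]; exact hn
      · rw [Fin.snoc_castSucc]; exact hnorm j
    · intro i
      refine Fin.lastCases ?_ (fun j => ?_) i
      · refine ⟨g, ?_⟩
        rw [Fin.succ_last, Fin.snoc_last, Fin.snoc_castSucc, hl]
      · obtain ⟨g', hg'⟩ := hstep j
        refine ⟨g', ?_⟩
        rw [Fin.succ_castSucc, Fin.snoc_castSucc, Fin.snoc_castSucc, hg']

theorem SCrel.isSupersolvable (h : SCrel (⊥ : Subgroup G) ⊤) : IsSupersolvable G :=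
  h.exists_chain

theorem SCrel.of_isSupersolvable (h : IsSupersolvable G) : SCrel (⊥ : Subgroup G) ⊤ := by
  obtain ⟨n, K, h0, hl, hnorm, hstep⟩ := h
  have key : ∀ i : Fin (n + 1), SCrel ⊥ (K i) := by
    intro i
    induction i using Fin.induction with
    | zero => rw [h0]; exact SCrel.refl _ inferInstance
    | succ j ih =>
      obtain ⟨g, hg⟩ := hstep j
      exact SCrel.step' g ih hg (hnorm _)
  rw [← hl]
  exact key _

/-- If `G ⧸ E` is supersolvable there is a chain from `E` to `⊤`. -/
theorem SCrel.of_quotient (E : Subgroup G) [E.Normal] (h : IsSupersolvable (G ⧸ E)) :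
    SCrel E (⊤ : Subgroup G) := by
  have h1 := (SCrel.of_isSupersolvable h).comap (QuotientGroup.mk' E) (QuotientGroup.mk'_surjective E)
  rw [Subgroup.comap_top] at h1
  have h2 : (⊥ : Subgroup (G ⧸ E)).comap (QuotientGroup.mk' E) = E := by
    have : (⊥ : Subgroup (G ⧸ E)).comap (QuotientGroup.mk' E) = (QuotientGroup.mk' E).ker := rfl
    rw [this, QuotientGroup.ker_mk']
  rwa [h2] at h1

/-- Transport of a chain in a subgroup `H` with `L ⊔ H = ⊤`, `L ⊴ G`. -/
theorem SCrel.transport (L H : Subgroup G) [hL : L.Normal] (hLH : L ⊔ H = ⊤) {A B : Subgroup H}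
    (h : SCrel A B) : SCrel (L ⊔ A.map H.subtype) (L ⊔ B.map H.subtype) := by
  have hnorm : ∀ A : Subgroup H, A.Normal → (L ⊔ A.map H.subtype).Normal := by
    intro A hA
    rw [← Subgroup.normalizer_eq_top_iff, eq_top_iff, ← hLH]
    apply sup_le
    · exact le_sup_left.trans Subgroup.le_normalizer
    · intro x hx
      rw [Subgroup.mem_normalizer_iff_map_conj_eq, Subgroup.map_sup]
      congr 1
      · exact Subgroup.mem_normalizer_iff_map_conj_eq.mp
          (by rw [Subgroup.normalizer_eq_top_iff.mpr hL]; trivial)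
      · ext y
        constructor
        · rintro ⟨_, ⟨a, ha, rfl⟩, rfl⟩
          exact ⟨⟨x, hx⟩ * a * ⟨x, hx⟩⁻¹, hA.conj_mem a ha _, by simp⟩
        · rintro ⟨a, ha, rfl⟩
          refine ⟨_, ⟨⟨x, hx⟩⁻¹ * a * ⟨x, hx⟩, ?_, rfl⟩, by simp [mul_assoc]⟩
          have := hA.conj_mem a ha (⟨x, hx⟩⁻¹)
          simpa using this
  induction h with
  | refl hA => exact SCrel.refl _ (hnorm _ hA)
  | step g _ hn ih =>
    refine SCrel.step' (g : G) ih ?_ (hnorm _ hn)
    rw [Subgroup.map_sup, MonoidHom.map_zpowers, sup_assoc]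
    rfl

end Cfsg.Agent.Lib.Helper17
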