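import Mathlib
import Cfsg.Agent.Lib.Helper4.Huppert2
import Cfsg.Agent.Lib.Helper17.SSC1

/-! The subgroup generated by commutators and `(p-1)`-th powers; a normal `p`-subgroup on which it acts as a
`p`-group has a chief series with cyclic factors. -/

set_option autoImplicit false
open scoped commutatorElement

namespace Cfsg.Agent.Lib.Helper17

open Cfsg Cfsg.Agent.Lib.Helper4

universe u

/-- The subgroup generated by the commutators and the `(p-1)`-th powers. -/
def tSub (p : ℕ) (H : Type u) [Group H] : Subgroup H :=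
  Subgroup.closure ({x | ∃ a b : H, x = ⁅a, b⁆} ∪ {x | ∃ a : H, x = a ^ (p - 1)})

section
variable {H : Type u} [Group H] (p : ℕ)

theorem commutator_mem_tSub (a b : H) : ⁅a, b⁆ ∈ tSub p H :=
  Subgroup.subset_closure (Or.inl ⟨a, b, rfl⟩)

theorem pow_mem_tSub (a : H) : a ^ (p - 1) ∈ tSub p H :=
  Subgroup.subset_closure (Or.inr ⟨a, rfl⟩)

theorem commutator_le_tSub : commutator H ≤ tSub p H := by
  rw [commutator_eq_closure, Subgroup.closure_le]
  rintro _ ⟨a, b, rfl⟩
  exact commutator_mem_tSub p a b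

instance tSub_normal : (tSub p H).Normal :=
  Subgroup.Normal.of_commutator_le _ (commutator_le_tSub p)

theorem map_tSub_le {H' : Type u} [Group H'] (f : H →* H') : (tSub p H).map f ≤ tSub p H' := by
  rw [tSub, MonoidHom.map_closure, Subgroup.closure_le]
  rintro _ ⟨x, hx | hx, rfl⟩
  · obtain ⟨a, b, rfl⟩ := hx
    rw [map_commutatorElement]
    exact commutator_mem_tSub p _ _
  · obtain ⟨a, rfl⟩ := hx
    rw [map_pow]
    exact pow_mem_tSub p _

theorem tSub_le_map {H' : Type u} [Group H'] (f : H →* H') (hf : Function.Surjective f) :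
    tSub p H' ≤ (tSub p H).map f := by
  rw [tSub, Subgroup.closure_le]
  rintro _ (hx | hx)
  · obtain ⟨a, b, rfl⟩ := hx
    obtain ⟨a, rfl⟩ := hf a
    obtain ⟨b, rfl⟩ := hf b
    exact ⟨⁅a, b⁆, commutator_mem_tSub p a b, map_commutatorElement f a b⟩
  · obtain ⟨a, rfl⟩ := hx
    obtain ⟨a, rfl⟩ := hf a
    exact ⟨a ^ (p - 1), pow_mem_tSub p a, map_pow f a _⟩

theorem tSub_le_centralizer_of_card_prime {p : ℕ} (hp : p.Prime) (Z : Subgroup H) [Z.Normal]
    (hZ : Nat.card Z = p) : tSub p H ≤ Subgroup.centralizer (Z : Set H) := by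
  haveI : Fact p.Prime := ⟨hp⟩
  haveI : IsCyclic Z := isCyclic_of_prime_card hZ
  rw [tSub, Subgroup.closure_le]
  rintro _ (hx | hx)
  · obtain ⟨a, b, rfl⟩ := hx
    exact commutator_le_centralizer_of_cyclic_normal Z
      (Subgroup.commutator_mem_commutator (Subgroup.mem_top _) (Subgroup.mem_top _))
  · obtain ⟨a, rfl⟩ := hx
    exact pow_pred_mem_centralizer_of_card_prime Z hp hZ a

/-- `tSub` acts trivially on a normal section of order `p`. -/
theorem tSub_comm_mem {p : ℕ} (hp : p.Prime) (A B : Subgroup H) [hA : A.Normal] [hB : B.Normal]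
    (hidx : A.relIndex B = p) {t b : H} (ht : t ∈ tSub p H) (hb : b ∈ B) :
    t * b * t⁻¹ * b⁻¹ ∈ A := by
  have hs := QuotientGroup.mk'_surjective A
  haveI : (B.map (QuotientGroup.mk' A)).Normal := hB.map _ hs
  have hcard : Nat.card (B.map (QuotientGroup.mk' A)) = p := by
    rw [← Subgroup.relIndex_bot_left, ← Subgroup.relIndex_comap]
    have : (⊥ : Subgroup (H ⧸ A)).comap (QuotientGroup.mk' A) = A := by
      have : (⊥ : Subgroup (H ⧸ A)).comap (QuotientGroup.mk' A) = (QuotientGroup.mk' A).ker := rfl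
      rw [this, QuotientGroup.ker_mk']
    rw [this, hidx]
  have h1 := tSub_le_centralizer_of_card_prime hp (B.map (QuotientGroup.mk' A)) hcard
    (map_tSub_le p (QuotientGroup.mk' A) (Subgroup.mem_map_of_mem _ ht))
  rw [Subgroup.mem_centralizer_iff] at h1
  have h2 := h1 _ (Subgroup.mem_map_of_mem _ hb)
  rw [← QuotientGroup.eq_one_iff]
  have h3 : ((t * b * t⁻¹ * b⁻¹ : H) : H ⧸ A) =
      (QuotientGroup.mk' A t * QuotientGroup.mk' A b) * (QuotientGroup.mk' A t)⁻¹ *
        (QuotientGroup.mk' A b)⁻¹ := by simp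
  rw [h3, ← h2]
  group

end

/-- A minimal normal subgroup which is a `p`-group and on which `tSub p H` acts as a `p`-group is cyclic. -/
theorem minNormal_cyclic_of_tSub {H : Type u} [Group H] [Finite H] (p : ℕ) [Fact p.Prime]
    (V : Subgroup H) (hV : IsMinNormal V) (hVp : IsPGroup p V)
    (hT : ∀ t ∈ tSub p H, ∃ k : ℕ, t ^ (p ^ k) ∈ Subgroup.centralizer (V : Set H)) :
    ∃ v : H, V = Subgroup.zpowers v := by
  have hp : p.Prime := Fact.out
  haveI hVn : V.Normal := hV.1
  -- abelian
  have hcomm : IsMulCommutative V := by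
    rw [Cfsg.Agent.Lib.Helper4.isMulCommutative_iff]
    have h1 : ⁅V, V⁆ = ⊥ := by
      rcases hV.2.2 ⁅V, V⁆ inferInstance (Subgroup.commutator_le_left _ _) with h | h
      · exact h
      · exact absurd (eq_bot_of_le_commutator_of_nilpotent hVp.isNilpotent le_rfl h.ge) hV.2.1
    rw [Subgroup.commutator_eq_bot_iff_le_centralizer] at h1
    intro a ha b hb
    exact (Subgroup.mem_centralizer_iff.mp (h1 hb) a ha)
  obtain ⟨q, hq, hel⟩ := hV.elemAb_of_comm hcomm
  obtain ⟨⟨x, hx⟩, hx1⟩ := (Subgroup.ne_bot_iff_exists_ne_one).mp hV.2.1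
  have hx1' : x ≠ 1 := fun h => hx1 (Subtype.ext h)
  have hqp : q = p := by
    have h1 : orderOf x = q := by
      rcases (Nat.dvd_prime hq).mp (orderOf_dvd_of_pow_eq_one (hel.2 x hx)) with h | h
      · exact absurd (orderOf_eq_one_iff.mp h) hx1'
      · exact h
    obtain ⟨k, hk⟩ := (IsPGroup.iff_orderOf.mp hVp) ⟨x, hx⟩
    rw [Subgroup.orderOf_mk, h1] at hk
    have hk0 : k ≠ 0 := by
      rintro rfl
      rw [pow_zero] at hk
      exact hq.one_lt.ne' hk
    have : p ∣ q := by rw [hk]; exact dvd_pow_self p hk0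
    exact ((Nat.prime_dvd_prime_iff_eq hp hq).mp this).symm
  subst hqp
  -- tSub centralizes V
  have hTV : tSub q H ≤ Subgroup.centralizer (V : Set H) := by
    obtain ⟨R, hR⟩ : ∃ R : Subgroup (MulAut V), R = (tSub q H).map (MulAut.conjNormal (H := V)) := ⟨_, rfl⟩
    have hRp : IsPGroup q R := by
      rintro ⟨r, hr⟩
      rw [hR] at hr
      obtain ⟨t, ht, rfl⟩ := hr
      obtain ⟨k, hk⟩ := hT t ht
      refine ⟨k, ?_⟩
      apply Subtype.ext
      change (MulAut.conjNormal t : MulAut V) ^ (q ^ k) = 1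
      rw [← map_pow]
      ext v
      rw [MulAut.conjNormal_apply]
      have := Subgroup.mem_centralizer_iff.mp hk v v.2
      rw [← this]
      simp
    have hdvd : q ∣ Nat.card V := by
      rcases hVp.card_eq_or_dvd with h | h
      · exact absurd (Subgroup.card_eq_one.mp h) hV.2.1
      · exact h
    have hfix : (1 : V) ∈ MulAction.fixedPoints R V := by
      intro r
      change (r : MulAut V) 1 = 1
      exact map_one _
    obtain ⟨b, hb, hb1⟩ := hRp.exists_fixed_point_of_prime_dvd_card_of_fixed_point V hdvd hfix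
    have hW : V ⊓ Subgroup.centralizer ((tSub q H : Subgroup H) : Set H) = V := by
      rcases hV.2.2 (V ⊓ Subgroup.centralizer ((tSub q H : Subgroup H) : Set H)) inferInstance
        inf_le_left with h | h
      · exfalso
        have hbm : (b : H) ∈ V ⊓ Subgroup.centralizer ((tSub q H : Subgroup H) : Set H) := by
          refine Subgroup.mem_inf.mpr ⟨b.2, ?_⟩
          rw [Subgroup.mem_centralizer_iff]
          intro t ht
          have h1 : (MulAut.conjNormal t : MulAut V) ∈ R := by rw [hR]; exact ⟨t, ht, rfl⟩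
          have h2 : (MulAut.conjNormal t : MulAut V) b = b := hb ⟨_, h1⟩
          have h3 := congrArg Subtype.val h2
          rw [MulAut.conjNormal_apply] at h3
          calc t * (b : H) = (t * b * t⁻¹) * t := by group
            _ = b * t := by rw [h3]
        rw [h, Subgroup.mem_bot] at hbm
        exact hb1 (Subtype.ext hbm.symm)
      · exact h
    exact Subgroup.le_centralizer_iff.mp (hW ▸ inf_le_right)
  have hcommC : commutator H ≤ Subgroup.centralizer (V : Set H) := (commutator_le_tSub q).trans hTV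
  have hstep9 : ∀ h : H, ∃ c : ℕ, ∀ v ∈ V, h * v * h⁻¹ = v ^ c := by
    intro h
    obtain ⟨v, hv, hv1, c, hc⟩ := exists_eigen_subgroup V hV.2.1 q hel h
      (fun v hv => hVn.conj_mem v hv h) (fun v hv => by
        have := Subgroup.mem_centralizer_iff.mp (hTV (pow_mem_tSub q h)) v hv
        rw [← this]; group)
    refine ⟨c, ?_⟩
    have hEn := eigenSub_normal V hel.1 hcommC h c
    rcases hV.2.2 _ hEn (fun w hw => hw.1) with hE | hE
    · exfalso
      have : v ∈ eigenSub V hel.1 h c := ⟨hv, hc⟩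
      rw [hE, Subgroup.mem_bot] at this
      exact hv1 this
    · intro w hw
      rw [← hE] at hw
      exact hw.2
  have hzn : (Subgroup.zpowers x).Normal := by
    constructor
    intro n hn g
    have hnV : n ∈ V := (Subgroup.zpowers_le.mpr hx) hn
    obtain ⟨c, hc⟩ := hstep9 g
    rw [hc n hnV]
    exact Subgroup.pow_mem _ hn c
  rcases hV.2.2 _ hzn (Subgroup.zpowers_le.mpr hx) with h | h
  · exfalso
    apply hx1'
    have := Subgroup.mem_zpowers x
    rwa [h, Subgroup.mem_bot] at this
  · exact ⟨x, h.symm⟩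

/-- A normal `p`-subgroup on which `tSub p H` acts as a `p`-group has a chain of normal subgroups of `H` with
cyclic steps. -/
theorem screl_of_tSub (p : ℕ) [Fact p.Prime] : ∀ (n : ℕ) (H : Type u) [Group H] [Finite H]
    (P : Subgroup H), P.Normal → IsPGroup p P → Nat.card P = n →
    (∀ t ∈ tSub p H, ∃ k : ℕ, t ^ (p ^ k) ∈ Subgroup.centralizer (P : Set H)) → SCrel ⊥ P := by
  intro n
  induction n using Nat.strong_induction_on with
  | _ n ih =>
  intro H _ _ P hPn hPp hn hT
  by_cases hP : P = ⊥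
  · rw [hP]; exact SCrel.refl _ inferInstance
  obtain ⟨V, hV, hVP⟩ := exists_minNormal_le P hPn hP
  haveI hVn : V.Normal := hV.1
  obtain ⟨v, hv⟩ := minNormal_cyclic_of_tSub p V hV (hPp.to_le hVP) (fun t ht => by
    obtain ⟨k, hk⟩ := hT t ht
    exact ⟨k, Subgroup.centralizer_le (by exact_mod_cast hVP) hk⟩)
  have h1 : SCrel ⊥ V := SCrel.step' v (SCrel.refl ⊥ inferInstance) (by rw [bot_sup_eq, hv]) hVn
  have hs := QuotientGroup.mk'_surjective V
  have hker : (⊥ : Subgroup (H ⧸ V)).comap (QuotientGroup.mk' V) = V := by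
    have : (⊥ : Subgroup (H ⧸ V)).comap (QuotientGroup.mk' V) = (QuotientGroup.mk' V).ker := rfl
    rw [this, QuotientGroup.ker_mk']
  have hcard : Nat.card (P.map (QuotientGroup.mk' V)) < n := by
    have h2 : Nat.card (P.map (QuotientGroup.mk' V)) = V.relIndex P := by
      rw [← Subgroup.relIndex_bot_left, ← Subgroup.relIndex_comap, hker]
    have h3 : V.relIndex P * Nat.card V = Nat.card P := by
      have := Subgroup.relIndex_mul_relIndex ⊥ V P bot_le hVP
      rw [Subgroup.relIndex_bot_left, Subgroup.relIndex_bot_left] at this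
      rw [← this, mul_comm]
    have h4 : 1 < Nat.card V := by
      rcases Nat.lt_or_ge 1 (Nat.card V) with h | h
      · exact h
      · exfalso
        have : Nat.card V = 1 := le_antisymm h Nat.card_pos
        exact hV.2.1 (Subgroup.card_eq_one.mp this)
    have h5 : 0 < V.relIndex P := by
      rcases Nat.eq_zero_or_pos (V.relIndex P) with h | h
      · rw [h, zero_mul] at h3
        exact absurd h3.symm Nat.card_pos.ne'
      · exact h
    rw [h2, ← hn, ← h3]
    nlinarith
  have h2 := ih _ hcard (H ⧸ V) (P.map (QuotientGroup.mk' V)) (hPn.map _ hs) (hPp.map _) rfl (by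
    intro t ht
    obtain ⟨s, hs', rfl⟩ := tSub_le_map p (QuotientGroup.mk' V) hs ht
    obtain ⟨k, hk⟩ := hT s hs'
    refine ⟨k, ?_⟩
    rw [← map_pow, Subgroup.mem_centralizer_iff]
    rintro _ ⟨y, hy, rfl⟩
    rw [← map_mul, ← map_mul, Subgroup.mem_centralizer_iff.mp hk y hy])
  have h3 := h2.comap (QuotientGroup.mk' V) hs
  rw [hker, Subgroup.comap_map_eq, QuotientGroup.ker_mk', sup_eq_left.mpr hVP] at h3
  exact h1.trans h3

end Cfsg.Agent.Lib.Helper17
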