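import Mathlib
import Cfsg.Agent.Lib.Helper17.Sidki
import Cfsg.Agent.Lib.Helper17.Cores2
import Cfsg.Agent.Lib.Helper8.FStar
import Cfsg.Agent.Lib.Helper20.Fitting

/-! Minimal counterexamples to the Sidki pair problem: `F*(G)` is simple and `G = V F*(G)`. -/

namespace Cfsg.Agent.Lib.Helper17

universe u

section general

variable {G : Type u} [Group G]

theorem commute_of_pow_coprime {h k : G} {n : ℕ} (hn : n.Coprime (orderOf h))
    (hc : Commute (h ^ n) k) : Commute h k := by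
  obtain ⟨m, hm⟩ := exists_pow_eq_self_of_coprime hn
  rw [← hm]; exact hc.pow_left m

theorem mem_of_sq_mem_of_odd (H : Subgroup G) {k : G} (ho : Odd (orderOf k)) (h : k * k ∈ H) :
    k ∈ H := by
  obtain ⟨m, hm⟩ := ho
  have h1 : k = (k * k) ^ (m + 1) := by
    rw [← pow_two, ← pow_mul]
    have h2 : 2 * (m + 1) = orderOf k + 1 := by omega
    rw [h2, pow_succ, pow_orderOf_eq_one, one_mul]
  rw [h1]; exact pow_mem h _

theorem exists_odd_part [Finite G] (d : G) : ∃ e : ℕ, Odd (orderOf (d ^ (2 ^ e))) := by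
  obtain ⟨e, m, hm, hem⟩ := Nat.exists_eq_two_pow_mul_odd (orderOf_pos d).ne'
  refine ⟨e, ?_⟩
  have hord : orderOf (d ^ (2 ^ e)) = m := by
    rw [orderOf_pow' _ (by positivity), hem, Nat.gcd_eq_right (Dvd.intro _ rfl)]
    exact Nat.mul_div_cancel_left _ (by positivity)
  rw [hord]; exact hm

theorem eq_one_of_odd_of_two_pow {h : G} (ho : Odd (orderOf h)) {k : ℕ} (hk : h ^ (2 ^ k) = 1) :
    h = 1 := by
  have h1 : orderOf h ∣ 2 ^ k := orderOf_dvd_of_pow_eq_one hk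
  have h2 : (orderOf h).Coprime (2 ^ k) := Nat.Coprime.pow_right _ (Nat.coprime_two_right.mpr ho)
  exact orderOf_eq_one_iff.mp (Nat.Coprime.eq_one_of_dvd h2 h1)

/-- If the image of `v` lies in `O₂(G/N)` then the elements of odd order inverted by `v` lie in
`N`. -/
theorem mem_of_inverted_of_mk_mem_pCore [Finite G] (N : Subgroup G) [N.Normal] {v h : G}
    (ho : Odd (orderOf h)) (hinv : v * h * v⁻¹ = h⁻¹)
    (hv : (QuotientGroup.mk v : G ⧸ N) ∈ Cfsg.pCore 2 (G ⧸ N)) : h ∈ N := by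
  have : Fact (Nat.Prime 2) := ⟨Nat.prime_two⟩
  obtain ⟨hb, hhb⟩ : ∃ hb : G ⧸ N, hb = QuotientGroup.mk h := ⟨_, rfl⟩
  obtain ⟨vb, hvb⟩ : ∃ vb : G ⧸ N, vb = QuotientGroup.mk v := ⟨_, rfl⟩
  rw [← hvb] at hv
  have hob : Odd (orderOf hb) := by
    rw [hhb]; exact Odd.of_dvd_nat ho (orderOf_map_dvd (QuotientGroup.mk' N) h)
  have h1 : vb * hb * vb⁻¹ = hb⁻¹ := by
    rw [hhb, hvb]
    exact congrArg (QuotientGroup.mk' N) hinv
  have h2 : hb⁻¹ * hb⁻¹ ∈ Cfsg.pCore 2 (G ⧸ N) := by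
    have h3 : vb * (hb * vb⁻¹ * hb⁻¹) = hb⁻¹ * hb⁻¹ := by
      calc vb * (hb * vb⁻¹ * hb⁻¹) = (vb * hb * vb⁻¹) * hb⁻¹ := by group
        _ = hb⁻¹ * hb⁻¹ := by rw [h1]
    rw [← h3]
    exact mul_mem hv ((Cfsg.pCore_normal 2 _).conj_mem _ (inv_mem hv) hb)
  obtain ⟨k, hk⟩ := (pCore_isPGroup (G := G ⧸ N) 2) ⟨_, h2⟩
  have hk' : (hb⁻¹ * hb⁻¹) ^ (2 ^ k) = 1 := by
    have := congrArg Subtype.val hk
    rwa [Subgroup.coe_pow] at this
  have h4 : hb⁻¹ = 1 := by
    apply eq_one_of_odd_of_two_pow (by rwa [orderOf_inv]) (k := k + 1)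
    rw [pow_succ', pow_mul, pow_two]; exact hk'
  have h5 : hb = 1 := by simpa using h4
  rw [hhb] at h5
  exact (QuotientGroup.eq_one_iff h).mp h5

/-- If `O₂(G) = 1` then abelian normal subgroups contain no involutions. -/
theorem eq_one_of_sq_of_mem_abelian_normal [Finite G] (hO : Cfsg.pCore 2 G = ⊥) (A : Subgroup G)
    (hAn : A.Normal) (hA : ∀ a ∈ A, ∀ b ∈ A, a * b = b * a) {n : G} (hn : n ∈ A)
    (hnn : n * n = 1) : n = 1 := by
  by_contra hne
  have h1 : n ∉ Cfsg.pCore 2 G := by rw [hO]; simpa using hne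
  obtain ⟨j, hj1, hjo, hinv⟩ := exists_inverted_of_not_mem_pCore hnn h1
  have h2 : j⁻¹ * j⁻¹ ∈ A := by
    have h3 : n * (j * n⁻¹ * j⁻¹) = j⁻¹ * j⁻¹ := by
      calc n * (j * n⁻¹ * j⁻¹) = (n * j * n⁻¹) * j⁻¹ := by group
        _ = j⁻¹ * j⁻¹ := by rw [hinv]
    rw [← h3]; exact mul_mem hn (hAn.conj_mem _ (inv_mem hn) j)
  have h3 : j⁻¹ ∈ A := mem_of_sq_mem_of_odd A (by rwa [orderOf_inv]) h2
  have h4 : j ∈ A := by simpa using inv_mem h3
  exact hj1 (eq_one_of_inverted_of_commute hjo hinv (hA n hn j h4))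

/-- The Sidki pair condition passes to quotients by normal subgroups meeting `V` trivially. -/
theorem sidki_quotient [Finite G] {V : Subgroup G} (hsq : ∀ v ∈ V, v * v = 1)
    (hS : Cfsg.IsSidkiPair V) (N : Subgroup G) [N.Normal] (hVN : V ⊓ N = ⊥) :
    Cfsg.IsSidkiPair (V.map (QuotientGroup.mk' N)) := by
  intro hb vb hvb hob hinvb
  obtain ⟨v, hv, rfl⟩ := hvb
  obtain ⟨h, rfl⟩ := QuotientGroup.mk'_surjective N hb
  have hvv := hsq v hv
  have hvinv : v⁻¹ = v := inv_eq_of_mul_eq_one_left hvv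
  obtain ⟨d, hd⟩ : ∃ d, d = h * v * h⁻¹ * v := ⟨_, rfl⟩
  have hdinv : v * d * v⁻¹ = d⁻¹ := by
    rw [hd]
    calc v * (h * v * h⁻¹ * v) * v⁻¹ = v * h * v * h⁻¹ := by group
      _ = v⁻¹ * h * v⁻¹ * h⁻¹ := by rw [hvinv]
      _ = (h * v * h⁻¹ * v)⁻¹ := by group
  have hdb : QuotientGroup.mk' N d = QuotientGroup.mk' N h * QuotientGroup.mk' N h := by
    have h1 : QuotientGroup.mk' N v * (QuotientGroup.mk' N h)⁻¹ * (QuotientGroup.mk' N v)⁻¹ =
        QuotientGroup.mk' N h := by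
      have h2 := congrArg (·⁻¹) hinvb
      simpa [mul_assoc] using h2
    have h3 : (QuotientGroup.mk' N v)⁻¹ = QuotientGroup.mk' N v := by
      rw [← map_inv, hvinv]
    rw [hd, map_mul, map_mul, map_mul, map_inv]
    calc QuotientGroup.mk' N h * QuotientGroup.mk' N v * (QuotientGroup.mk' N h)⁻¹ *
          QuotientGroup.mk' N v
        = QuotientGroup.mk' N h * (QuotientGroup.mk' N v * (QuotientGroup.mk' N h)⁻¹ *
          (QuotientGroup.mk' N v)⁻¹) := by rw [h3]; group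
      _ = _ := by rw [h1]
  obtain ⟨e, he⟩ := exists_odd_part d
  have hinv' : v * d ^ (2 ^ e) * v⁻¹ = (d ^ (2 ^ e))⁻¹ := by
    rw [← conj_pow, hdinv, inv_pow]
  obtain ⟨w, hw, hw1, hc⟩ := hS _ v hv he hinv'
  refine ⟨QuotientGroup.mk' N w, ⟨w, hw, rfl⟩, ?_, ?_⟩
  · intro h1
    apply hw1
    have h2 : w ∈ V ⊓ N := ⟨hw, (QuotientGroup.eq_one_iff w).mp h1⟩
    rw [hVN] at h2
    exact Subgroup.mem_bot.mp h2
  · have h1 : Commute ((QuotientGroup.mk' N h) ^ (2 ^ (e + 1))) (QuotientGroup.mk' N w) := by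
      have h2 : (QuotientGroup.mk' N h) ^ (2 ^ (e + 1)) = QuotientGroup.mk' N (d ^ (2 ^ e)) := by
        rw [map_pow, hdb, pow_succ', pow_mul, pow_two]
      rw [h2]
      exact ((show Commute w (d ^ (2 ^ e)) from hc).map (QuotientGroup.mk' N)).symm
    exact (commute_of_pow_coprime
      (Nat.Coprime.pow_left _ (Nat.coprime_two_left.mpr hob)) h1).symm.eq

theorem sidki_subgroupOf {V : Subgroup G} (hS : Cfsg.IsSidkiPair V) (H : Subgroup G) (hVH : V ≤ H) :
    Cfsg.IsSidkiPair (V.subgroupOf H) := by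
  intro h v hv ho hinv
  obtain ⟨w, hw, hw1, hc⟩ := hS (h : G) (v : G) (Subgroup.mem_subgroupOf.mp hv)
    (by rwa [Subgroup.orderOf_coe]) (by
      have := congrArg Subtype.val hinv
      simpa using this)
  exact ⟨⟨w, hVH hw⟩, Subgroup.mem_subgroupOf.mpr hw, fun h1 => hw1 (congrArg Subtype.val h1),
    Subtype.ext hc⟩

theorem elemAb_subgroupOf {W : Subgroup G} (hcomm : ∀ a ∈ W, ∀ b ∈ W, a * b = b * a)
    (hsq : ∀ v ∈ W, v * v = 1) (H : Subgroup G) : Cfsg.IsElementaryAbelian 2 (W.subgroupOf H) := by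
  refine ⟨⟨⟨fun a b => Subtype.ext (Subtype.ext ?_)⟩⟩, fun a ha => Subtype.ext ?_⟩
  · exact hcomm _ (Subgroup.mem_subgroupOf.mp a.2) _ (Subgroup.mem_subgroupOf.mp b.2)
  · rw [pow_two]
    exact hsq _ (Subgroup.mem_subgroupOf.mp ha)

end general

/-- The hypotheses on a minimal counterexample that we use. -/
structure SidkiMin (G : Type u) [Group G] [Finite G] (V : Subgroup G) : Prop where
  comm : ∀ a ∈ V, ∀ b ∈ V, a * b = b * a
  sq : ∀ v ∈ V, v * v = 1
  ne : V ≠ ⊥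
  sidki : Cfsg.IsSidkiPair V
  core : V ⊓ Cfsg.pCore 2 G = ⊥
  min : ∀ (H : Type u) [Group H] [Finite H] (W : Subgroup H), Nat.card H < Nat.card G →
    Cfsg.IsElementaryAbelian 2 W → W ≠ ⊥ → Cfsg.IsSidkiPair W → W ⊓ Cfsg.pCore 2 H ≠ ⊥

namespace SidkiMin

variable {G : Type u} [Group G] [Finite G] {V : Subgroup G}

theorem quot (hm : SidkiMin G V) (N : Subgroup G) [N.Normal] (hN : N ≠ ⊥) (hVN : V ⊓ N = ⊥) :
    ∃ v ∈ V, v ≠ 1 ∧ (QuotientGroup.mk v : G ⧸ N) ∈ Cfsg.pCore 2 (G ⧸ N) := by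
  have hlt : Nat.card (G ⧸ N) < Nat.card G := by
    rw [Subgroup.card_eq_card_quotient_mul_card_subgroup N]
    have h1 : 1 < Nat.card N := N.one_lt_card_iff_ne_bot.mpr hN
    have h2 : 0 < Nat.card (G ⧸ N) := Nat.card_pos
    nlinarith
  have hel : Cfsg.IsElementaryAbelian 2 (V.map (QuotientGroup.mk' N)) := by
    have : IsMulCommutative ↥V := ⟨⟨fun a b => Subtype.ext (hm.comm _ a.2 _ b.2)⟩⟩
    refine ⟨inferInstance, ?_⟩
    rintro _ ⟨v, hv, rfl⟩
    rw [← map_pow, pow_two, hm.sq v hv, map_one]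
  have hne : V.map (QuotientGroup.mk' N) ≠ ⊥ := by
    intro h1
    apply hm.ne
    rw [Subgroup.map_eq_bot_iff, QuotientGroup.ker_mk'] at h1
    rw [← hVN]; exact (inf_eq_left.mpr h1).symm
  have h1 := hm.min (G ⧸ N) _ hlt hel hne (sidki_quotient hm.sq hm.sidki N hVN)
  obtain ⟨y, hy⟩ := Subgroup.ne_bot_iff_exists_ne_one.mp h1
  obtain ⟨⟨v, hv, hvy⟩, hy2⟩ := Subgroup.mem_inf.mp y.2
  refine ⟨v, hv, ?_, ?_⟩
  · rintro rfl
    apply hy
    apply Subtype.ext
    rw [← hvy]; simp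
  · have : (QuotientGroup.mk v : G ⧸ N) = y.1 := hvy
    rw [this]; exact hy2

theorem card_lt_of_ne_top {H : Subgroup G} (hH : H ≠ ⊤) : Nat.card H < Nat.card G := by
  have h1 : Nat.card H ≤ Nat.card G := Subgroup.card_le_card_group H
  rcases h1.lt_or_eq with h | h
  · exact h
  · exact absurd (Subgroup.eq_top_of_card_eq H h) hH

theorem sub_mem (hm : SidkiMin G V) (H : Subgroup G) (hVH : V ≤ H) (hH : H ≠ ⊤) :
    ∃ v ∈ V, v ≠ 1 ∧ v ∈ (Cfsg.pCore 2 ↥H).map H.subtype := by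
  have hne : V.subgroupOf H ≠ ⊥ := by
    intro h1
    apply hm.ne
    rw [Subgroup.subgroupOf_eq_bot, disjoint_iff, inf_eq_left.mpr hVH] at h1
    exact h1
  have h1 := hm.min ↥H _ (card_lt_of_ne_top hH) (elemAb_subgroupOf hm.comm hm.sq H) hne
    (sidki_subgroupOf hm.sidki H hVH)
  obtain ⟨y, hy⟩ := Subgroup.ne_bot_iff_exists_ne_one.mp h1
  obtain ⟨hy1, hy2⟩ := Subgroup.mem_inf.mp y.2
  exact ⟨y.1.1, Subgroup.mem_subgroupOf.mp hy1, fun h => hy (Subtype.ext (Subtype.ext h)),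
    ⟨y.1, hy2, rfl⟩⟩

theorem sub_bad (hm : SidkiMin G V) (H W : Subgroup G) (hH : H ≠ ⊤) (hWH : W ≤ H) (hWV : W ≤ V)
    (hW1 : W ≠ ⊥) (hWO : ∀ w ∈ W, w ∈ (Cfsg.pCore 2 ↥H).map H.subtype → w = 1) :
    ∃ h ∈ H, ∃ w ∈ W, Odd (orderOf h) ∧ w * h * w⁻¹ = h⁻¹ ∧ ∀ w' ∈ W, w' ≠ 1 → w' * h ≠ h * w' := by
  have hne : W.subgroupOf H ≠ ⊥ := by
    intro h1
    apply hW1
    rw [Subgroup.subgroupOf_eq_bot, disjoint_iff, inf_eq_left.mpr hWH] at h1
    exact h1
  have hns : ¬ Cfsg.IsSidkiPair (W.subgroupOf H) := by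
    intro hs
    apply hm.min ↥H _ (card_lt_of_ne_top hH) (elemAb_subgroupOf
      (fun a ha b hb => hm.comm a (hWV ha) b (hWV hb)) (fun v hv => hm.sq v (hWV hv)) H) hne hs
    rw [eq_bot_iff]
    intro y hy
    obtain ⟨hy1, hy2⟩ := Subgroup.mem_inf.mp hy
    rw [Subgroup.mem_bot]
    exact Subtype.ext (hWO y.1 (Subgroup.mem_subgroupOf.mp hy1) ⟨y, hy2, rfl⟩)
  unfold Cfsg.IsSidkiPair at hns
  push Not at hns
  obtain ⟨h, v, hv, ho, hinv, hall⟩ := hns
  refine ⟨h.1, h.2, v.1, Subgroup.mem_subgroupOf.mp hv, by rwa [Subgroup.orderOf_coe] at *, ?_, ?_⟩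
  · have := congrArg Subtype.val hinv
    simpa using this
  · intro w' hw' hw1 hc
    exact hall ⟨w', hWH hw'⟩ (Subgroup.mem_subgroupOf.mpr hw')
      (fun h1 => hw1 (congrArg Subtype.val h1)) (Subtype.ext hc)

theorem core_eq_bot (hm : SidkiMin G V) : Cfsg.pCore 2 G = ⊥ := by
  have : Fact (Nat.Prime 2) := ⟨Nat.prime_two⟩
  by_contra hne
  obtain ⟨v, hv, hv1, hvc⟩ := hm.quot (Cfsg.pCore 2 G) hne hm.core
  have hvn : v ∉ Cfsg.pCore 2 G := by
    intro h
    have h1 : v ∈ V ⊓ Cfsg.pCore 2 G := ⟨hv, h⟩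
    rw [hm.core] at h1; exact hv1 (Subgroup.mem_bot.mp h1)
  obtain ⟨h, hh1, hho, hinv⟩ := exists_inverted_of_not_mem_pCore (hm.sq v hv) hvn
  have h2 := mem_of_inverted_of_mk_mem_pCore _ hho hinv hvc
  obtain ⟨k, hk⟩ := (pCore_isPGroup (G := G) 2) ⟨h, h2⟩
  apply hh1
  apply eq_one_of_odd_of_two_pow hho (k := k)
  have h3 := congrArg Subtype.val hk
  rwa [Subgroup.coe_pow] at h3

omit [Finite G] in
theorem centralizes_of_mem_pCore_sub [Finite G] (hO : Cfsg.pCore 2 G = ⊥) (H N : Subgroup G)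
    [hNn : N.Normal] (hNH : N ≤ H) {v : G} (hv : v ∈ (Cfsg.pCore 2 ↥H).map H.subtype) :
    ∀ n ∈ N, v * n = n * v := by
  have : Fact (Nat.Prime 2) := ⟨Nat.prime_two⟩
  intro n hn
  have h1 : v * n * v⁻¹ * n⁻¹ ∈ (Cfsg.pCore 2 ↥H).map H.subtype ⊓ N := by
    rw [Subgroup.mem_inf]
    constructor
    · obtain ⟨v', hv', rfl⟩ := hv
      exact ⟨v' * (⟨n, hNH hn⟩ * v'⁻¹ * ⟨n, hNH hn⟩⁻¹),
        mul_mem hv' ((Cfsg.pCore_normal 2 _).conj_mem _ (inv_mem hv') _), by simp [mul_assoc]⟩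
    · exact mul_mem (hNn.conj_mem _ hn v) (inv_mem hn)
  have h2 := pCore_subgroup_inf_normal_le 2 H N hNH h1
  rw [hO, Subgroup.mem_bot] at h2
  exact eq_mul_of_mul_inv_eq (mul_inv_eq_one.mp h2)

theorem exists_centralizing (hm : SidkiMin G V) (N : Subgroup G) [N.Normal] (hNV : N ⊔ V ≠ ⊤) :
    ∃ v ∈ V, v ≠ 1 ∧ ∀ n ∈ N, v * n = n * v := by
  obtain ⟨v, hv, hv1, hvc⟩ := hm.sub_mem (N ⊔ V) le_sup_right hNV
  exact ⟨v, hv, hv1, centralizes_of_mem_pCore_sub hm.core_eq_bot _ N le_sup_left hvc⟩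

theorem isPGroup_of_le (hm : SidkiMin G V) {U : Subgroup G} (hU : U ≤ V) : IsPGroup 2 ↥U := by
  intro g
  refine ⟨1, Subtype.ext ?_⟩
  rw [pow_one, pow_two]
  exact hm.sq _ (hU g.2)

theorem le_center_of_centralized (hm : SidkiMin G V) (N : Subgroup G) [hNn : N.Normal] {u0 : G}
    (hu0 : u0 ∈ V) (hu01 : u0 ≠ 1) (hu0N : ∀ n ∈ N, u0 * n = n * u0) :
    N ≤ Subgroup.center G := by
  have : Fact (Nat.Prime 2) := ⟨Nat.prime_two⟩
  have hO := hm.core_eq_bot
  by_contra hnc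
  obtain ⟨C, hC⟩ : ∃ C, C = Subgroup.centralizer (N : Set G) := ⟨_, rfl⟩
  have hCn : C.Normal := hC ▸ inferInstance
  have hCmem : ∀ c, c ∈ C ↔ ∀ n ∈ N, n * c = c * n := by
    intro c; rw [hC, Subgroup.mem_centralizer_iff]; rfl
  have hCtop : C ≠ ⊤ := by
    intro htop
    apply hnc
    intro n hn
    rw [Subgroup.mem_center_iff]
    intro g
    have hg : g ∈ C := htop ▸ Subgroup.mem_top g
    exact ((hCmem g).mp hg n hn).symm
  obtain ⟨U, hU⟩ : ∃ U, U = V ⊓ C := ⟨_, rfl⟩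
  have hUV : U ≤ V := hU ▸ inf_le_left
  have hUC : U ≤ C := hU ▸ inf_le_right
  have hU1 : U ≠ ⊥ := by
    intro hb
    have h1 : u0 ∈ U := by
      rw [hU]; exact ⟨hu0, (hCmem u0).mpr (fun n hn => (hu0N n hn).symm)⟩
    rw [hb] at h1
    exact hu01 (Subgroup.mem_bot.mp h1)
  obtain ⟨h, hhC, u, huU, hho, hhinv, hhall⟩ := hm.sub_bad C U hCtop hUC hUV hU1 (by
    intro w hw hwc
    have h1 := pCore_normal_le 2 C hwc
    rw [hO] at h1; exact Subgroup.mem_bot.mp h1)
  have huV : u ∈ V := hUV huU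
  have huC : u ∈ C := hUC huU
  obtain ⟨Y, hY⟩ : ∃ Y, Y = V ⊓ Subgroup.centralizer ({h} : Set G) := ⟨_, rfl⟩
  have hYV : Y ≤ V := hY ▸ inf_le_left
  have hYmem : ∀ y, y ∈ Y ↔ y ∈ V ∧ y * h = h * y := by
    intro y; rw [hY, Subgroup.mem_inf, Subgroup.mem_centralizer_singleton_iff]
  obtain ⟨w0, hw0, hw01, hw0c⟩ := hm.sidki h u huV hho hhinv
  have hY1 : Y ≠ ⊥ := by
    intro hb
    have h1 : w0 ∈ Y := (hYmem w0).mpr ⟨hw0, hw0c⟩
    rw [hb] at h1
    exact hw01 (Subgroup.mem_bot.mp h1)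
  have hYC : ∀ y ∈ Y, y ∈ C → y = 1 := by
    intro y hy hyC
    by_contra hy1
    exact hhall y (hU ▸ ⟨((hYmem y).mp hy).1, hyC⟩) hy1 ((hYmem y).mp hy).2
  by_cases hH2 : N ⊔ Y = ⊤
  · have hUn : U.Normal := by
      rw [← Subgroup.normalizer_eq_top_iff, ← top_le_iff, ← hH2]
      apply sup_le
      · intro n hn
        apply mem_normalizer_of_map_conj_le
        rintro _ ⟨a, ha, rfl⟩
        have h1 : n * a * n⁻¹ = a := by rw [(hCmem a).mp (hUC ha) n hn]; group
        change n * a * n⁻¹ ∈ U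
        rw [h1]; exact ha
      · intro y hy
        apply mem_normalizer_of_map_conj_le
        rintro _ ⟨a, ha, rfl⟩
        have h1 : y * a * y⁻¹ = a := by rw [hm.comm y (hYV hy) a (hUV ha)]; group
        change y * a * y⁻¹ ∈ U
        rw [h1]; exact ha
    have h2 := le_pCore hUn (hm.isPGroup_of_le hUV)
    rw [hO] at h2
    exact hU1 (le_bot_iff.mp h2)
  · obtain ⟨k, hkH, y, hyY, hko, hkinv, hkall⟩ := hm.sub_bad (N ⊔ Y) Y hH2 le_sup_right hYV hY1 (by
      intro w hw hwc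
      apply hYC w hw
      rw [hCmem]
      intro n hn
      exact (centralizes_of_mem_pCore_sub hO _ N le_sup_left hwc n hn).symm)
    have hkN : k ∈ N := by
      apply mem_of_sq_mem_of_odd N hko
      have h1 : k ∈ ((N ⊔ Y : Subgroup G) : Set G) := hkH
      rw [Subgroup.normal_mul] at h1
      obtain ⟨n, hn, y1, hy1, hk⟩ := h1
      have hk' : n * y1 = k := hk
      have hy1sq : y1 * y1 = 1 := hm.sq y1 (hYV hy1)
      have hy1inv : y1⁻¹ = y1 := inv_eq_of_mul_eq_one_left hy1sq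
      have h2 : k * k = n * (y1 * n * y1⁻¹) := by
        rw [← hk', hy1inv]; group
      rw [h2]
      exact mul_mem hn (hNn.conj_mem _ hn y1)
    have hyV : y ∈ V := hYV hyY
    have hhk : Commute h k := ((hCmem h).mp hhC k hkN).symm
    have hyh2 : y * h * y⁻¹ = h := by rw [((hYmem y).mp hyY).2]; group
    have huk2 : u * k * u⁻¹ = k := by rw [← (hCmem u).mp huC k hkN]; group
    have hodd : Odd (orderOf (h * k)) :=
      Odd.of_dvd_nat (hho.mul hko) hhk.orderOf_mul_dvd_mul_orderOf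
    have hinv : (u * y) * (h * k) * (u * y)⁻¹ = (h * k)⁻¹ := by
      calc u * y * (h * k) * (u * y)⁻¹ = u * ((y * h * y⁻¹) * (y * k * y⁻¹)) * u⁻¹ := by group
        _ = u * (h * k⁻¹) * u⁻¹ := by rw [hyh2, hkinv]
        _ = (u * h * u⁻¹) * (u * k * u⁻¹)⁻¹ := by group
        _ = h⁻¹ * k⁻¹ := by rw [hhinv, huk2]
        _ = (h * k)⁻¹ := by rw [hhk.eq, mul_inv_rev]
    obtain ⟨w, hw, hw1, hwc⟩ := hm.sidki (h * k) (u * y) (mul_mem huV hyV) hodd hinv
    obtain ⟨n, hn⟩ : ∃ n, n = h⁻¹ * (w * h * w⁻¹) := ⟨_, rfl⟩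
    have hn2 : n = k * (w * k * w⁻¹)⁻¹ := by
      have h1 : (w * h * w⁻¹) * (w * k * w⁻¹) = h * k := by
        calc (w * h * w⁻¹) * (w * k * w⁻¹) = (w * (h * k)) * w⁻¹ := by group
          _ = h * k := by rw [hwc]; group
      rw [hn, eq_mul_inv_iff_mul_eq, mul_assoc, h1]; group
    have hnC : n ∈ C := by
      rw [hn]; exact mul_mem (inv_mem hhC) (hCn.conj_mem _ hhC w)
    have hnN : n ∈ N := by
      rw [hn2]; exact mul_mem hkN (inv_mem (hNn.conj_mem _ hkN w))
    have hh' : w * h * w⁻¹ = h * n := by rw [hn]; group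
    have hnh : n * h = h * n := (hCmem h).mp hhC n hnN
    have hun : u * n * u⁻¹ = n := by rw [← (hCmem u).mp huC n hnN]; group
    have huw : u * w = w * u := hm.comm u huV w hw
    have hnn : n * n = 1 := by
      have h1 : u * (w * h * w⁻¹) * u⁻¹ = (w * h * w⁻¹)⁻¹ := by
        calc u * (w * h * w⁻¹) * u⁻¹ = (u * w) * h * (u * w)⁻¹ := by group
          _ = w * (u * h * u⁻¹) * w⁻¹ := by rw [huw]; group
          _ = (w * h * w⁻¹)⁻¹ := by rw [hhinv]; group
      rw [hh'] at h1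
      have h2 : u * (h * n) * u⁻¹ = h⁻¹ * n := by
        calc u * (h * n) * u⁻¹ = (u * h * u⁻¹) * (u * n * u⁻¹) := by group
          _ = h⁻¹ * n := by rw [hhinv, hun]
      rw [h2, ← hnh, mul_inv_rev] at h1
      have h3 : n = n⁻¹ := mul_left_cancel h1
      exact mul_eq_one_iff_eq_inv.mpr h3
    have hn1 : n = 1 := by
      apply eq_one_of_sq_of_mem_abelian_normal hO (C ⊓ N) inferInstance _ ⟨hnC, hnN⟩ hnn
      intro a ha b hb
      exact ((hCmem a).mp ha.1 b hb.2).symm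
    have hwh : w * h = h * w := by
      rw [hn1, mul_one] at hh'
      exact eq_mul_of_mul_inv_eq hh'
    have hwk : w * k = k * w := by
      rw [hn1] at hn2
      have h1 : w * k * w⁻¹ = k := (mul_inv_eq_one.mp hn2.symm).symm
      exact eq_mul_of_mul_inv_eq h1
    exact hkall w ((hYmem w).mpr ⟨hw, hwh⟩) hw1 hwk

theorem center_eq_bot (hm : SidkiMin G V) : Subgroup.center G = ⊥ := by
  have hO := hm.core_eq_bot
  by_contra hne
  have hVZ : V ⊓ Subgroup.center G = ⊥ := by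
    rw [eq_bot_iff]
    intro v hv
    rw [Subgroup.mem_bot]
    exact eq_one_of_sq_of_mem_abelian_normal hO (Subgroup.center G) inferInstance
      (fun a _ b hb => Subgroup.mem_center_iff.mp hb a) hv.2 (hm.sq v hv.1)
  obtain ⟨v, hv, hv1, hvc⟩ := hm.quot (Subgroup.center G) hne hVZ
  have hvn : v ∉ Cfsg.pCore 2 G := by rw [hO]; simpa using hv1
  obtain ⟨h, hh1, hho, hinv⟩ := exists_inverted_of_not_mem_pCore (hm.sq v hv) hvn
  have h2 := mem_of_inverted_of_mk_mem_pCore _ hho hinv hvc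
  exact hh1 (eq_one_of_inverted_of_commute hho hinv (Subgroup.mem_center_iff.mp h2 v))

theorem eq_one_of_centralizes (hm : SidkiMin G V) (N : Subgroup G) (hNn : N.Normal) (hN : N ≠ ⊥)
    {v : G} (hv : v ∈ V) (hvN : ∀ n ∈ N, v * n = n * v) : v = 1 := by
  by_contra hv1
  have h1 := hm.le_center_of_centralized N hv hv1 hvN
  rw [hm.center_eq_bot, le_bot_iff] at h1
  exact hN h1

theorem sup_eq_top (hm : SidkiMin G V) (N : Subgroup G) (hNn : N.Normal) (hN : N ≠ ⊥) :
    N ⊔ V = ⊤ := by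
  by_contra hne
  obtain ⟨v, hv, hv1, hvN⟩ := hm.exists_centralizing N hne
  exact hv1 (hm.eq_one_of_centralizes N hNn hN hv hvN)

theorem no_abelian_normal (hm : SidkiMin G V) (A : Subgroup G) (hAn : A.Normal)
    (hA : ∀ a ∈ A, ∀ b ∈ A, a * b = b * a) : A = ⊥ := by
  have hO := hm.core_eq_bot
  by_contra hne
  obtain ⟨B, hBn, hB1, hBA, hBmin⟩ := exists_minimal_normal_le A hAn hne
  have hB : ∀ a ∈ B, ∀ b ∈ B, a * b = b * a := fun a ha b hb => hA a (hBA ha) b (hBA hb)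
  have htop := hm.sup_eq_top B hBn hB1
  have hfix : ∀ v ∈ V, v ≠ 1 → ∀ a ∈ B, v * a = a * v → a = 1 := by
    intro v hv hv1
    obtain ⟨D, hD⟩ : ∃ D, D = B ⊓ Subgroup.centralizer ({v} : Set G) := ⟨_, rfl⟩
    have hDmem : ∀ a, a ∈ D ↔ a ∈ B ∧ a * v = v * a := by
      intro a; rw [hD, Subgroup.mem_inf, Subgroup.mem_centralizer_singleton_iff]
    have hDn : D.Normal := by
      rw [← Subgroup.normalizer_eq_top_iff, ← top_le_iff, ← htop]
      apply sup_le
      · intro b hb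
        apply mem_normalizer_of_map_conj_le
        rintro _ ⟨a, ha, rfl⟩
        have h1 : b * a * b⁻¹ = a := by rw [hB b hb a ((hDmem a).mp ha).1]; group
        change b * a * b⁻¹ ∈ D
        rw [h1]; exact ha
      · intro w hw
        apply mem_normalizer_of_map_conj_le
        rintro _ ⟨a, ha, rfl⟩
        change w * a * w⁻¹ ∈ D
        rw [hDmem]
        refine ⟨hBn.conj_mem _ ((hDmem a).mp ha).1 w, ?_⟩
        have h1 : w * v = v * w := hm.comm w hw v hv
        have h2 : w⁻¹ * v = v * w⁻¹ := ((show Commute w v from h1).inv_left).eq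
        calc w * a * w⁻¹ * v = w * a * (w⁻¹ * v) := by group
          _ = w * (a * v) * w⁻¹ := by rw [h2]; group
          _ = (w * v) * a * w⁻¹ := by rw [((hDmem a).mp ha).2]; group
          _ = v * (w * a * w⁻¹) := by rw [h1]; group
    by_cases hD1 : D = ⊥
    · intro a ha hc
      have h1 : a ∈ D := (hDmem a).mpr ⟨ha, hc.symm⟩
      rw [hD1] at h1
      exact Subgroup.mem_bot.mp h1
    · have h1 := hBmin D hDn hD1 (hD ▸ inf_le_left)
      exact absurd (hm.eq_one_of_centralizes B hBn hB1 hv (fun n hn =>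
        (((hDmem n).mp (h1 ▸ hn)).2).symm)) hv1
  obtain ⟨v', hv'⟩ := Subgroup.ne_bot_iff_exists_ne_one.mp hm.ne
  obtain ⟨a', ha'⟩ := Subgroup.ne_bot_iff_exists_ne_one.mp hB1
  obtain ⟨v, hv, hv1⟩ : ∃ v ∈ V, v ≠ 1 := ⟨v'.1, v'.2, fun h => hv' (Subtype.ext h)⟩
  obtain ⟨a, ha, ha1⟩ : ∃ a ∈ B, a ≠ 1 := ⟨a'.1, a'.2, fun h => ha' (Subtype.ext h)⟩
  have hvv := hm.sq v hv
  have hinv : v * a * v⁻¹ = a⁻¹ := by
    have hc : v * a * v⁻¹ ∈ B := hBn.conj_mem _ ha v
    have h1 : a * (v * a * v⁻¹) = 1 := by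
      apply hfix v hv hv1 _ (mul_mem ha hc)
      have h2 : v * (a * (v * a * v⁻¹)) * v⁻¹ = a * (v * a * v⁻¹) := by
        calc v * (a * (v * a * v⁻¹)) * v⁻¹ = (v * a * v⁻¹) * ((v * v) * a * (v * v)⁻¹) := by group
          _ = (v * a * v⁻¹) * a := by rw [hvv]; group
          _ = a * (v * a * v⁻¹) := hB _ hc _ ha
      exact eq_mul_of_mul_inv_eq h2
    exact eq_inv_of_mul_eq_one_right h1
  have hodd : Odd (orderOf a) := by
    by_contra hev
    rw [Nat.not_odd_iff_even] at hev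
    obtain ⟨m, hm2⟩ := hev
    have h0 : a ^ m * a ^ m = 1 := by rw [← pow_add, ← hm2, pow_orderOf_eq_one]
    have h1 := eq_one_of_sq_of_mem_abelian_normal hO B hBn hB (pow_mem ha m) h0
    have h2 := orderOf_dvd_of_pow_eq_one h1
    have h3 : 0 < orderOf a := orderOf_pos a
    have h4 := Nat.le_of_dvd (by omega) h2
    omega
  obtain ⟨w, hw, hw1, hc⟩ := hm.sidki a v hv hodd hinv
  exact ha1 (hfix w hw hw1 a ha hc)

theorem fitting_eq_bot (hm : SidkiMin G V) : Cfsg.fittingSubgroup G = ⊥ := by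
  by_contra hne
  obtain ⟨F, hF⟩ : ∃ F, F = Cfsg.fittingSubgroup G := ⟨_, rfl⟩
  rw [← hF] at hne
  have hFn : F.Normal := hF ▸ Cfsg.Agent.Lib.Helper20.fitting_normal
  have hFnil : Group.IsNilpotent ↥F := hF ▸ Cfsg.Agent.Lib.Helper20.fitting_isNilpotent
  have hA := hm.no_abelian_normal (F ⊓ Subgroup.centralizer (F : Set G)) inferInstance
    (fun a ha b hb => (Subgroup.mem_centralizer_iff.mp hb.2 a ha.1))
  have htop : (⊤ : Subgroup ↥F) ≠ ⊥ := by
    intro h
    apply hne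
    rw [eq_bot_iff]
    intro y hy
    have h1 : (⟨y, hy⟩ : ↥F) ∈ (⊤ : Subgroup ↥F) := Subgroup.mem_top _
    rw [h, Subgroup.mem_bot] at h1
    exact Subgroup.mem_bot.mpr (congrArg Subtype.val h1)
  obtain ⟨x, -, hxc, hx1⟩ := Cfsg.Agent.Lib.Helper20.normal_inf_center_ne_bot (N := ↥F) ⊤ htop
  apply hx1
  have h2 : (x : G) ∈ F ⊓ Subgroup.centralizer (F : Set G) := by
    refine Subgroup.mem_inf.mpr ⟨x.2, ?_⟩
    rw [Subgroup.mem_centralizer_iff]
    intro y hy
    exact congrArg Subtype.val (Subgroup.mem_center_iff.mp hxc ⟨y, hy⟩)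
  rw [hA, Subgroup.mem_bot] at h2
  exact Subtype.ext h2

open Cfsg.Agent.Lib.Helper8 in
theorem main (hm : SidkiMin G V) : IsSimpleGroup ↥(Cfsg.generalizedFittingSubgroup G) ∧
    ¬ IsMulCommutative ↥(Cfsg.generalizedFittingSubgroup G) ∧
    V ⊔ Cfsg.generalizedFittingSubgroup G = ⊤ := by
  have : Fact (Nat.Prime 2) := ⟨Nat.prime_two⟩
  have hO := hm.core_eq_bot
  obtain ⟨E, hE⟩ : ∃ E, E = Cfsg.layer G := ⟨_, rfl⟩
  have hFE : Cfsg.generalizedFittingSubgroup G = E := by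
    unfold Cfsg.generalizedFittingSubgroup
    rw [hm.fitting_eq_bot, sup_bot_eq, hE]
  have hEn : E.Normal := hE ▸ layer_normal
  have hE1 : E ≠ ⊥ := by
    intro hb
    have h1 := centralizer_generalizedFitting_le (G := G)
    rw [hFE, hb] at h1
    apply hm.ne
    rw [eq_bot_iff]
    intro v _
    apply h1
    rw [Subgroup.mem_centralizer_iff]
    intro y hy
    have hy1 : y = 1 := hy
    rw [hy1]; simp
  have hEV : E ⊔ V = ⊤ := hm.sup_eq_top E hEn hE1
  -- facts on components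
  have hcomm : ∀ L K : Subgroup G, Cfsg.IsComponent L → Cfsg.IsComponent K → L ≠ K →
      K ≤ Subgroup.centralizer (L : Set G) := by
    intro L K hL hK hne
    rw [isComponent_iff] at hL hK
    have h1 := hK.2.commutator_eq_bot_of_ne hL.2 hK.1 hL.1 hne.symm
    exact Subgroup.commutator_eq_bot_iff_le_centralizer.mp h1
  have hEnorm : ∀ L : Subgroup G, Cfsg.IsComponent L → E ≤ Subgroup.normalizer (L : Set G) := by
    intro L hL
    rw [hE]
    apply sSup_le
    intro K hK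
    by_cases hKL : L = K
    · rw [hKL]; exact Subgroup.le_normalizer
    · exact (hcomm L K hL hK hKL).trans (Subgroup.centralizer_le_normalizer _)
  have hZL : ∀ L : Subgroup G, Cfsg.IsComponent L → L ⊓ Subgroup.centralizer (L : Set G) = ⊥ := by
    intro L hL
    have hA := hm.no_abelian_normal (E ⊓ Subgroup.centralizer (E : Set G)) inferInstance
      (fun a ha b hb => (Subgroup.mem_centralizer_iff.mp hb.2 a ha.1))
    rw [eq_bot_iff, ← hA]
    intro z hz
    refine Subgroup.mem_inf.mpr ⟨hE ▸ le_layer_of_isComponent hL hz.1, ?_⟩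
    have h1 : E ≤ Subgroup.centralizer ({z} : Set G) := by
      rw [hE]
      apply sSup_le
      intro K hK
      by_cases hKL : L = K
      · intro k hk
        rw [Subgroup.mem_centralizer_singleton_iff]
        exact Subgroup.mem_centralizer_iff.mp hz.2 k (hKL ▸ hk)
      · intro k hk
        rw [Subgroup.mem_centralizer_singleton_iff]
        exact (Subgroup.mem_centralizer_iff.mp (hcomm L K hL hK hKL hk) z hz.1).symm
    rw [Subgroup.mem_centralizer_iff]
    intro e he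
    exact Subgroup.mem_centralizer_singleton_iff.mp (h1 he)
  -- there is a component
  obtain ⟨L, hL⟩ : ∃ L : Subgroup G, Cfsg.IsComponent L := by
    by_contra hcon
    push Not at hcon
    apply hE1
    rw [hE, eq_bot_iff]
    apply sSup_le
    intro K hK
    exact absurd hK (hcon K)
  have hLQ : QS L := ((isComponent_iff L).mp hL).2
  have hL1 : L ≠ ⊥ := hLQ.2.1
  have hZ := hZL L hL
  -- conjugates of L by elements not normalizing L centralize L
  have hstar : ∀ s : G, s ∉ Subgroup.normalizer (L : Set G) → ∀ l ∈ L,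
      s * l * s⁻¹ ∈ Subgroup.centralizer (L : Set G) := by
    intro s hs l hl
    have h1 : L ≠ L.map (MulAut.conj s).toMonoidHom := by
      intro h
      exact hs (Subgroup.mem_normalizer_iff_map_conj_eq.mpr h.symm)
    exact hcomm L _ hL (isComponent_conj hL s) h1 ⟨l, hl, rfl⟩
  have hstar' : ∀ s : G, s ∉ Subgroup.normalizer (L : Set G) → ∀ x ∈ L, s * x = x * s → x = 1 := by
    intro s hs x hx hc
    have h1 := hstar s hs x hx
    have h2 : s * x * s⁻¹ = x := by rw [hc]; group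
    rw [h2] at h1
    have h3 : x ∈ L ⊓ Subgroup.centralizer (L : Set G) := ⟨hx, h1⟩
    rw [hZ] at h3
    exact Subgroup.mem_bot.mp h3
  -- elements of V centralizing L are trivial
  have hcent : ∀ w ∈ V, (∀ l ∈ L, w * l = l * w) → w = 1 := by
    intro w hw hwL
    apply hm.eq_one_of_centralizes (Subgroup.normalClosure (L : Set G))
      Subgroup.normalClosure_normal _ hw
    · have h1 : Subgroup.normalClosure (L : Set G) ≤ Subgroup.centralizer ({w} : Set G) := by
        unfold Subgroup.normalClosure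
        rw [Subgroup.closure_le]
        intro y hy
        obtain ⟨l, hl, hly⟩ := Group.mem_conjugatesOfSet_iff.mp hy
        obtain ⟨g, hg⟩ := isConj_iff.mp hly
        have hgm : g ∈ ((E ⊔ V : Subgroup G) : Set G) := by rw [hEV]; exact Set.mem_univ _
        rw [Subgroup.normal_mul] at hgm
        obtain ⟨e, he, t, ht, het⟩ := hgm
        have het' : e * t = g := het
        have h2 : e * (t * l * t⁻¹) * e⁻¹ ∈ L.map (MulAut.conj t).toMonoidHom :=
          (Subgroup.mem_normalizer_iff.mp (hEnorm _ (isComponent_conj hL t) he) _).mp ⟨l, hl, rfl⟩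
        obtain ⟨l', hl', hl'e⟩ := h2
        have h3 : y = t * l' * t⁻¹ := by
          rw [← hg, ← het']
          have : (MulAut.conj t).toMonoidHom l' = t * l' * t⁻¹ := rfl
          rw [← this, hl'e]; group
        change y ∈ Subgroup.centralizer ({w} : Set G)
        rw [Subgroup.mem_centralizer_singleton_iff, h3]
        have h4 : w * t = t * w := hm.comm w hw t ht
        have h5 : w * t⁻¹ = t⁻¹ * w := ((show Commute w t from h4).inv_right).eq
        calc t * l' * t⁻¹ * w = t * l' * (t⁻¹ * w) := by group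
          _ = t * (l' * w) * t⁻¹ := by rw [← h5]; group
          _ = (t * w) * l' * t⁻¹ := by rw [← hwL l' hl']; group
          _ = w * (t * l' * t⁻¹) := by rw [← h4]; group
      intro n hn
      exact (Subgroup.mem_centralizer_singleton_iff.mp (h1 hn)).symm
    · intro hb
      apply hL1
      rw [eq_bot_iff, ← hb]
      exact Subgroup.le_normalClosure
  have hsolv : ∀ K : Subgroup G, IsPGroup 2 ↥K → Group.IsSolvable ↥K := by
    intro K hK
    have := hK.isNilpotent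
    infer_instance
  have hVL : V ≤ Subgroup.normalizer (L : Set G) := by
    by_contra hnot
    obtain ⟨t, htV, htL⟩ := SetLike.not_le_iff_exists.mp hnot
    have ht1 : t ≠ 1 := by rintro rfl; exact htL (one_mem _)
    obtain ⟨V1, hV1⟩ : ∃ V1, V1 = V ⊓ Subgroup.normalizer (L : Set G) := ⟨_, rfl⟩
    have hV1V : V1 ≤ V := hV1 ▸ inf_le_left
    have hV1N : V1 ≤ Subgroup.normalizer (L : Set G) := hV1 ▸ inf_le_right
    by_cases hV1b : V1 = ⊥
    · have hreg : ∀ w ∈ V, w ≠ 1 → w ∉ Subgroup.normalizer (L : Set G) := by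
        intro w hw hw1 hwN
        have h1 : w ∈ V1 := hV1 ▸ Subgroup.mem_inf.mpr ⟨hw, hwN⟩
        rw [hV1b] at h1; exact hw1 (Subgroup.mem_bot.mp h1)
      obtain ⟨x, hxL, hx1, hxo⟩ : ∃ x ∈ L, x ≠ 1 ∧ Odd (orderOf x) := by
        by_contra hcon
        push Not at hcon
        apply hLQ.not_isSolvable
        apply hsolv
        intro l
        obtain ⟨e, he⟩ := exists_odd_part (l : G)
        refine ⟨e, ?_⟩
        by_contra hne
        exact hcon _ (pow_mem l.2 _) (fun h => hne (Subtype.ext (by simpa using h))) he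
      obtain ⟨x', hx'⟩ : ∃ x', x' = t * x * t⁻¹ := ⟨_, rfl⟩
      have htt := hm.sq t htV
      have hxx' : Commute x x' := by
        have h1 := hstar t htL x hxL
        rw [← hx'] at h1
        exact (Subgroup.mem_centralizer_iff.mp h1 x hxL)
      obtain ⟨h, hh⟩ : ∃ h, h = x⁻¹ * x' := ⟨_, rfl⟩
      have hinv : t * h * t⁻¹ = h⁻¹ := by
        rw [hh, hx']
        calc t * (x⁻¹ * (t * x * t⁻¹)) * t⁻¹
            = (t * x * t⁻¹)⁻¹ * ((t * t) * x * (t * t)⁻¹) := by group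
          _ = (t * x * t⁻¹)⁻¹ * x := by rw [htt]; group
          _ = (x⁻¹ * (t * x * t⁻¹))⁻¹ := by group
      have hox' : orderOf x' = orderOf x := by
        rw [hx']
        have := (MulAut.conj t).orderOf_eq x
        simpa [MulAut.conj_apply] using this
      have hodd : Odd (orderOf h) := by
        rw [hh]
        exact Odd.of_dvd_nat ((by rwa [orderOf_inv] : Odd (orderOf x⁻¹)).mul (hox' ▸ hxo))
          (hxx'.inv_left.orderOf_mul_dvd_mul_orderOf)
      obtain ⟨w, hw, hw1, hwc⟩ := hm.sidki h t htV hodd hinv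
      by_cases hwt : w = t
      · rw [hwt] at hwc
        have h1 := eq_one_of_inverted_of_commute hodd hinv hwc
        have h2 : x' = x := by rw [hh] at h1; exact (inv_mul_eq_one.mp h1).symm
        apply hx1
        apply hstar' t htL x hxL
        rw [hx'] at h2; exact eq_mul_of_mul_inv_eq h2
      · have hwt1 : w * t ≠ 1 := by
          intro h1
          apply hwt
          have h2 : w = t⁻¹ := eq_inv_of_mul_eq_one_left h1
          rw [h2]; exact inv_eq_of_mul_eq_one_left htt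
        have ha1 := hstar w (hreg w hw hw1) x⁻¹ (inv_mem hxL)
        have ha2 := hstar (w * t) (hreg _ (mul_mem hw htV) hwt1) x hxL
        have ha3 := hstar t htL x⁻¹ (inv_mem hxL)
        have h1 : x⁻¹ = (w * x⁻¹ * w⁻¹) * ((w * t) * x * (w * t)⁻¹) * (t * x⁻¹ * t⁻¹) := by
          have h2 : w * h * w⁻¹ = h := by rw [hwc]; group
          rw [hh, hx'] at h2
          calc x⁻¹ = (x⁻¹ * (t * x * t⁻¹)) * (t * x⁻¹ * t⁻¹) := by group
            _ = (w * (x⁻¹ * (t * x * t⁻¹)) * w⁻¹) * (t * x⁻¹ * t⁻¹) := by rw [h2]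
            _ = _ := by group
        have h3 : x⁻¹ ∈ L ⊓ Subgroup.centralizer (L : Set G) := by
          refine Subgroup.mem_inf.mpr ⟨inv_mem hxL, ?_⟩
          rw [h1]; exact mul_mem (mul_mem ha1 ha2) ha3
        rw [hZ] at h3
        exact hx1 (by simpa using Subgroup.mem_bot.mp h3)
    · obtain ⟨H, hH⟩ : ∃ H, H = L ⊔ V1 := ⟨_, rfl⟩
      have hHN : H ≤ Subgroup.normalizer (L : Set G) := hH ▸ sup_le Subgroup.le_normalizer hV1N
      have hHtop : H ≠ ⊤ := by intro h; exact htL (hHN (h ▸ Subgroup.mem_top t))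
      have hLH : L ≤ H := hH ▸ le_sup_left
      obtain ⟨x, hxH, u, huV1, hxo, hxinv, hxall⟩ := hm.sub_bad H V1 hHtop (hH ▸ le_sup_right)
        hV1V hV1b (by
        intro w hw hwc
        apply hcent w (hV1V hw)
        intro l hl
        obtain ⟨D, hD⟩ : ∃ D, D = (Cfsg.pCore 2 ↥H).map H.subtype ⊓ L := ⟨_, rfl⟩
        have hDL : D ≤ L := hD ▸ inf_le_right
        have hLD : L ≤ Subgroup.normalizer (D : Set G) := by
          intro a ha
          apply mem_normalizer_of_map_conj_le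
          rintro _ ⟨d, hd, rfl⟩
          rw [hD] at hd ⊢
          obtain ⟨⟨d', hd', hdd⟩, hdL⟩ := Subgroup.mem_inf.mp hd
          refine Subgroup.mem_inf.mpr ⟨⟨⟨a, hLH ha⟩ * d' * ⟨a, hLH ha⟩⁻¹,
            (Cfsg.pCore_normal 2 _).conj_mem _ hd' _, ?_⟩, ?_⟩
          · simp [← hdd]
          · exact mul_mem (mul_mem ha hdL) (inv_mem ha)
        have hDbot : D = ⊥ := by
          rcases hLQ.2.2 D hDL hLD with h | h
          · exfalso
            apply hLQ.not_isSolvable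
            apply hsolv
            rw [← h, hD]
            exact ((pCore_isPGroup 2).map _).to_le inf_le_left
          · rw [eq_bot_iff, ← hZ]
            exact le_inf hDL (Subgroup.commutator_eq_bot_iff_le_centralizer.mp h)
        have hc : w * l * w⁻¹ * l⁻¹ ∈ D := by
          rw [hD]
          refine Subgroup.mem_inf.mpr ⟨?_, ?_⟩
          · obtain ⟨w', hw', rfl⟩ := hwc
            exact ⟨w' * (⟨l, hLH hl⟩ * w'⁻¹ * ⟨l, hLH hl⟩⁻¹),
              mul_mem hw' ((Cfsg.pCore_normal 2 _).conj_mem _ (inv_mem hw') _), by simp [mul_assoc]⟩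
          · exact mul_mem ((Subgroup.mem_normalizer_iff.mp (hV1N hw) l).mp hl) (inv_mem hl)
        rw [hDbot, Subgroup.mem_bot] at hc
        exact eq_mul_of_mul_inv_eq (mul_inv_eq_one.mp hc))
      have hxL : x ∈ L := by
        apply mem_of_sq_mem_of_odd L hxo
        rw [hH] at hxH
        obtain ⟨b, hb, a, ha, hxba⟩ := (mem_sup_of_le_normalizer hV1N).mp hxH
        have hbb := hm.sq b (hV1V hb)
        have h1 : x * x = (b * a * b⁻¹) * a := by
          rw [hxba]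
          calc b * a * (b * a) = (b * a * b⁻¹) * (b * b) * a := by group
            _ = _ := by rw [hbb, mul_one]
        rw [h1]
        exact mul_mem ((Subgroup.mem_normalizer_iff.mp (hV1N hb) a).mp ha) ha
      obtain ⟨w, hw, hw1, hwc⟩ := hm.sidki x u (hV1V huV1) hxo hxinv
      by_cases hwN : w ∈ Subgroup.normalizer (L : Set G)
      · exact hxall w (hV1 ▸ Subgroup.mem_inf.mpr ⟨hw, hwN⟩) hw1 hwc
      · have hx1 := hstar' w hwN x hxL hwc
        obtain ⟨u', hu'⟩ := Subgroup.ne_bot_iff_exists_ne_one.mp hV1b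
        exact hxall u'.1 u'.2 (fun h => hu' (Subtype.ext h)) (by rw [hx1]; simp)
  have hLn : L.Normal := by
    rw [← Subgroup.normalizer_eq_top_iff, ← top_le_iff, ← hEV]
    exact sup_le (hEnorm L hL) hVL
  have hLV : L ⊔ V = ⊤ := hm.sup_eq_top L hLn hL1
  have hVc : IsMulCommutative ↥V := ⟨⟨fun a b => Subtype.ext (hm.comm _ a.2 _ b.2)⟩⟩
  have hder : commutator G ≤ L :=
    Subgroup.Normal.commutator_le_of_self_sup_commutative_eq_top hLV hVc
  have hEL : E = L := by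
    rw [hE]
    apply le_antisymm
    · apply sSup_le
      intro K hK
      have hKQ : QS K := ((isComponent_iff K).mp hK).2
      calc K = ⁅K, K⁆ := hKQ.1.symm
        _ ≤ ⁅(⊤ : Subgroup G), ⊤⁆ := Subgroup.commutator_mono le_top le_top
        _ = commutator G := (commutator_def G).symm
        _ ≤ L := hder
    · exact le_sSup hL
  rw [hFE, hEL]
  refine ⟨?_, ?_, by rw [sup_comm]; exact hLV⟩
  · have hnt : Nontrivial ↥L := (Subgroup.nontrivial_iff_ne_bot L).mpr hL1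
    refine ⟨fun T hT => ?_⟩
    have h1 : L ≤ Subgroup.normalizer ((T.map L.subtype : Subgroup G) : Set G) := by
      intro a ha
      apply mem_normalizer_of_map_conj_le
      rintro _ ⟨_, ⟨s, hs, rfl⟩, rfl⟩
      exact ⟨⟨a, ha⟩ * s * ⟨a, ha⟩⁻¹, hT.conj_mem _ hs _, by simp⟩
    rcases hLQ.2.2 _ (Subgroup.map_subtype_le T) h1 with h | h
    · right
      rw [eq_top_iff]; intro n _
      have h2 : (n : G) ∈ T.map L.subtype := by rw [h]; exact n.2
      obtain ⟨s, hs, hsn⟩ := h2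
      have h3 : s = n := Subtype.ext hsn
      rw [← h3]; exact hs
    · left
      have h2 : T.map L.subtype ≤ L ⊓ Subgroup.centralizer (L : Set G) :=
        le_inf (Subgroup.map_subtype_le T) (Subgroup.commutator_eq_bot_iff_le_centralizer.mp h)
      rw [hZ, le_bot_iff] at h2
      exact (Subgroup.map_eq_bot_iff_of_injective _ L.subtype_injective).mp h2
  · intro hc
    apply hLQ.not_commutative
    rw [Subgroup.commutator_eq_bot_iff_le_centralizer]
    intro a ha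
    rw [Subgroup.mem_centralizer_iff]
    intro b hb
    exact setLike_mul_comm hb ha

end SidkiMin

end Cfsg.Agent.Lib.Helper17
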