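import Mathlib
import Cfsg.Agent.S0023
import Cfsg.Agent.Lib.Helper1.SylowSystem
import Cfsg.Agent.Lib.Helper2.ZStar
import Cfsg.Agent.Lib.Helper17.Cores

/-! Corollaries of Glauberman's `Z*`-theorem and lemmas on an involution acting on a group of odd order. -/

set_option autoImplicit false

namespace Cfsg.Agent.Lib.Helper17

open Cfsg

variable {G : Type*} [Group G] [Finite G]

theorem zc_card_zpowers_two {d : G} (hd : orderOf d = 2) : Nat.card (Subgroup.zpowers d) = 2 := by
  rw [Nat.card_zpowers, hd]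

theorem zc_inv_eq {d : G} (hd : orderOf d = 2) : d⁻¹ = d := by
  have h : d ^ 2 = 1 := by rw [← hd]; exact pow_orderOf_eq_one d
  rw [inv_eq_iff_mul_eq_one, ← sq, h]

/-- An invariant Sylow subgroup for an involution normalizing a subgroup of odd order. -/
theorem zc_exists_invariant_sylow {d : G} (hd : orderOf d = 2) (K : Subgroup G)
    (hdK : d ∈ Subgroup.normalizer (K : Set G)) (hK : Odd (Nat.card K)) (p : ℕ) [Fact p.Prime] :
    ∃ P : Sylow p K, d ∈ Subgroup.normalizer ((P : Subgroup K).map K.subtype : Set G) := by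
  have hA : Subgroup.zpowers d ≤ Subgroup.normalizer (K : Set G) := by
    rw [Subgroup.zpowers_le]; exact hdK
  have hcop : (Nat.card (Subgroup.zpowers d)).Coprime (Nat.card K) := by
    rw [zc_card_zpowers_two hd]; exact (Nat.coprime_two_left).mpr hK
  have hs : Group.IsSolvable (Subgroup.zpowers d) ∨ Group.IsSolvable K := Or.inl inferInstance
  obtain ⟨P, hP⟩ := Cfsg.Agent.S0023.result (Subgroup.zpowers d) K hA hcop hs p
  exact ⟨P, hP (Subgroup.mem_zpowers d)⟩

/-- If all the commutators `y⁻¹ d y d⁻¹`, `y ∈ K`, are `p`-elements (`K` of odd order normalized by the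
involution `d`), they all lie in one `d`-invariant `p`-subgroup of `K`. -/
theorem zc_commutators_in_pgroup {d : G} (hd : orderOf d = 2) (K : Subgroup G)
    (hdK : d ∈ Subgroup.normalizer (K : Set G)) (hK : Odd (Nat.card K)) (p : ℕ) [Fact p.Prime]
    (h : ∀ y ∈ K, ∃ k : ℕ, orderOf (y⁻¹ * d * y * d⁻¹) = p ^ k) :
    ∃ P : Subgroup G, P ≤ K ∧ IsPGroup p P ∧ ∀ y ∈ K, y⁻¹ * d * y * d⁻¹ ∈ P := by
  obtain ⟨P, hP⟩ := zc_exists_invariant_sylow hd K hdK hK p
  obtain ⟨C, hC⟩ : ∃ C : Subgroup K, C = (Subgroup.centralizer ({d} : Set G)).subgroupOf K := ⟨_, rfl⟩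
  have hcop : C.index.Coprime (P : Subgroup K).index := by
    apply Nat.Coprime.symm
    apply Nat.coprime_of_dvd
    intro q hq hqP hqC
    haveI : Fact q.Prime := ⟨hq⟩
    have hqp : q ≠ p := by
      rintro rfl
      exact P.not_dvd_index hqP
    obtain ⟨Q, hQ⟩ := zc_exists_invariant_sylow hd K hdK hK q
    have hQC : (Q : Subgroup K) ≤ C := by
      intro y hy
      rw [hC, Subgroup.mem_subgroupOf, Subgroup.mem_centralizer_singleton_iff]
      obtain ⟨k, hk⟩ := h y y.2
      have hmem : (y : G)⁻¹ * d * y * d⁻¹ ∈ (Q : Subgroup K).map K.subtype := by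
        have h1 : (y : G) ∈ (Q : Subgroup K).map K.subtype := ⟨y, hy, rfl⟩
        have h2 : d * (y : G) * d⁻¹ ∈ (Q : Subgroup K).map K.subtype :=
          (Subgroup.mem_normalizer_iff.mp hQ _).mp h1
        have := Subgroup.mul_mem _ (Subgroup.inv_mem _ h1) h2
        have e : (y : G)⁻¹ * (d * y * d⁻¹) = (y : G)⁻¹ * d * y * d⁻¹ := by group
        rwa [e] at this
      have hQp : IsPGroup q ((Q : Subgroup K).map K.subtype) := Q.2.map _
      obtain ⟨j, hj⟩ := (IsPGroup.iff_orderOf.mp hQp) ⟨_, hmem⟩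
      rw [Subgroup.orderOf_mk] at hj
      have h1 : orderOf ((y : G)⁻¹ * d * y * d⁻¹) = 1 := by
        have hc : (q ^ j).Coprime (p ^ k) :=
          Nat.Coprime.pow _ _ ((Nat.coprime_primes hq (Fact.out)).mpr hqp)
        rw [← hj, ← hk] at hc
        exact (Nat.coprime_self _).mp hc
      rw [orderOf_eq_one_iff] at h1
      have : (y : G)⁻¹ * d * y = d := by
        have := mul_inv_eq_one.mp h1
        exact this
      symm
      calc d * (y : G) = y * ((y : G)⁻¹ * d * y) := by group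
        _ = y * d := by rw [this]
    have hdvd : C.index ∣ (Q : Subgroup K).index := Subgroup.index_dvd_of_le hQC
    exact Q.not_dvd_index (hqC.trans hdvd)
  refine ⟨(P : Subgroup K).map K.subtype, Subgroup.map_subtype_le _, P.2.map _, ?_⟩
  intro y hy
  obtain ⟨c, hc, u, hu, hcu⟩ := Cfsg.Agent.Lib.Helper1.exists_mul_of_coprime_index C (P : Subgroup K) hcop ⟨y, hy⟩
  have hy' : y = (c : G) * (u : G) := by
    have := congrArg Subtype.val hcu
    simpa using this
  rw [hC, Subgroup.mem_subgroupOf, Subgroup.mem_centralizer_singleton_iff] at hc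
  have h1 : (u : G) ∈ (P : Subgroup K).map K.subtype := ⟨u, hu, rfl⟩
  have h2 : d * (u : G) * d⁻¹ ∈ (P : Subgroup K).map K.subtype :=
    (Subgroup.mem_normalizer_iff.mp hP _).mp h1
  have h3 := Subgroup.mul_mem _ (Subgroup.inv_mem _ h1) h2
  have e : y⁻¹ * d * y * d⁻¹ = (u : G)⁻¹ * (d * u * d⁻¹) := by
    rw [hy']
    have : (c : G)⁻¹ * d * c = d := by
      calc (c : G)⁻¹ * d * c = (c : G)⁻¹ * (d * c) := by group
        _ = (c : G)⁻¹ * (c * d) := by rw [← hc]
        _ = d := by group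
    calc ((c : G) * u)⁻¹ * d * (c * u) * d⁻¹ = (u : G)⁻¹ * ((c : G)⁻¹ * d * c) * u * d⁻¹ := by group
      _ = (u : G)⁻¹ * d * u * d⁻¹ := by rw [this]
      _ = _ := by group
  rw [e]; exact h3

/-- If `w d` is an involution with `w` in a subgroup `K` of odd order, then `w d = v d v⁻¹` for some `v ∈ K`. -/
theorem zc_conj_of_mul_involution {d w : G} (hd : orderOf d = 2) (K : Subgroup G) (hK : Odd (Nat.card K))
    (hw : w ∈ K) (hwd : (w * d) * (w * d) = 1) : ∃ v ∈ K, w * d = v * d * v⁻¹ := by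
  have hdi := zc_inv_eq hd
  have hinv : d * w * d⁻¹ = w⁻¹ := by
    have : d * w * d = w⁻¹ := by
      have h1 : w * (d * w * d) = 1 := by rw [← hwd]; group
      exact eq_inv_of_mul_eq_one_right h1
    rw [hdi]; exact this
  obtain ⟨m, hm⟩ := hK
  have hwo : w ^ (2 * m + 1) = 1 := by
    have : (⟨w, hw⟩ : K) ^ Nat.card K = 1 := pow_card_eq_one'
    rw [hm] at this
    have := congrArg Subtype.val this
    simpa using this
  refine ⟨w ^ (m + 1), Subgroup.pow_mem _ hw _, ?_⟩
  have h2 : d * (w ^ (m+1))⁻¹ * d⁻¹ = w ^ (m + 1) := by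
    have : d * (w ^ (m+1))⁻¹ * d⁻¹ = ((d * w * d⁻¹) ^ (m+1))⁻¹ := by
      rw [conj_pow]; group
    rw [this, hinv, inv_pow, inv_inv]
  have h3 : w ^ (m+1) * w ^ (m+1) = w := by
    rw [← pow_add]
    have : m + 1 + (m + 1) = (2 * m + 1) + 1 := by ring
    rw [this, pow_succ, hwo, one_mul]
  calc w * d = (w ^ (m+1) * w ^ (m+1)) * d := by rw [h3]
    _ = w ^ (m+1) * (d * (w ^ (m+1))⁻¹ * d⁻¹) * d := by rw [h2]
    _ = _ := by group

/-- `Z*`: every conjugate of an isolated involution is a conjugate by an element of `O(G)`. -/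
theorem zc_conj_by_oddCore {d : G} (hd : IsIsolatedInvolution d) (g : G) :
    ∃ v ∈ oddCore G, g * d * g⁻¹ = v * d * v⁻¹ := by
  have h1 := Cfsg.Agent.Lib.Helper2.zstar_isolatedInvolution hd g
  have hdi := zc_inv_eq hd.1
  have hd2 : d * d = 1 := by
    have h : d ^ 2 = 1 := by rw [← hd.1]; exact pow_orderOf_eq_one d
    rw [← sq, h]
  have e : g * d * g⁻¹ = (g * d * g⁻¹ * d⁻¹) * d := by group
  have h2 : ((g * d * g⁻¹ * d⁻¹) * d) * ((g * d * g⁻¹ * d⁻¹) * d) = 1 := by
    rw [← e]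
    calc g * d * g⁻¹ * (g * d * g⁻¹) = g * (d * d) * g⁻¹ := by group
      _ = 1 := by rw [hd2]; group
  obtain ⟨v, hv, hv'⟩ := zc_conj_of_mul_involution hd.1 (oddCore G)
    Cfsg.Agent.Lib.Helper2.odd_card_oddCore h1 h2
  exact ⟨v, hv, by rw [e, hv']⟩

end Cfsg.Agent.Lib.Helper17
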